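import Mathlib

set_option autoImplicit false

namespace Cfsg.Agent.Lib.Helper2

open Subgroup

/-- A fixed-point-free involution `z` on a finite normal subgroup `N` inverts every element. -/
theorem inv_of_fpf_involution {H : Type*} [Group H] (N : Subgroup H) [Finite N] (hNn : N.Normal)
    (z : H) (hz : z * z = 1) (hfix : ∀ n ∈ N, z * n = n * z → n = 1) :
    ∀ n ∈ N, z * n * z⁻¹ = n⁻¹ := by
  have hzi : z⁻¹ = z := inv_eq_of_mul_eq_one_left hz
  let f : N → N := fun n => ⟨(n : H)⁻¹ * (z * n * z⁻¹), N.mul_mem (N.inv_mem n.2) (hNn.conj_mem _ n.2 z)⟩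
  have hinj : Function.Injective f := by
    intro n m hnm
    have h1 : (n : H)⁻¹ * (z * n * z⁻¹) = (m : H)⁻¹ * (z * m * z⁻¹) := congrArg Subtype.val hnm
    have h2 : z * ((m : H) * (n : H)⁻¹) = (m : H) * (n : H)⁻¹ * z := by
      have e1 : z * ((m : H) * (n : H)⁻¹) = (m : H) * ((m : H)⁻¹ * (z * m * z⁻¹)) * ((n : H)⁻¹ * (z * n * z⁻¹))⁻¹ * (n : H)⁻¹ * z := by
        group
      rw [e1, ← h1]; group
    have h3 := hfix _ (N.mul_mem m.2 (N.inv_mem n.2)) h2
    apply Subtype.ext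
    have h4 : (m : H) = (m : H) * (n : H)⁻¹ * n := by group
    rw [h4, h3, one_mul]
  have hsurj : Function.Surjective f := Finite.injective_iff_surjective.mp hinj
  intro n hn
  obtain ⟨m, hm⟩ := hsurj ⟨n, hn⟩
  have h1 : (m : H)⁻¹ * (z * m * z⁻¹) = n := congrArg Subtype.val hm
  rw [← h1]
  have e : z * ((m : H)⁻¹ * (z * m * z⁻¹)) * z⁻¹ = z * (m : H)⁻¹ * z * m * (z * z)⁻¹ := by group
  have e' : ((m : H)⁻¹ * (z * m * z⁻¹))⁻¹ = z * (m : H)⁻¹ * z⁻¹ * m := by group
  rw [e, e', hz, hzi]; simp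

/-- If `z` is an involution in a four-group `E` all of whose involutions are conjugate to `z`,
then a normal subgroup `N` with `C_N(z) = 1` is trivial. -/
theorem eq_bot_of_fpf_klein {H : Type*} [Group H] [Finite H] (z : H) (hz : orderOf z = 2)
    (E : Subgroup H) (hE : IsKleinFour ↥E) (hzE : z ∈ E) (hc : ∀ e ∈ E, e ≠ 1 → IsConj z e)
    (N : Subgroup H) (hNn : N.Normal) (hNz : N ⊓ Subgroup.centralizer ({z} : Set H) = ⊥) :
    N = ⊥ := by
  classical
  have hzz : z * z = 1 := by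
    have := pow_orderOf_eq_one z
    rw [hz, pow_two] at this
    exact this
  have hz1 : z ≠ 1 := by
    intro h
    rw [h, orderOf_one] at hz
    omega
  have hfixz : ∀ n ∈ N, z * n = n * z → n = 1 := by
    intro n hn hcomm
    have : n ∈ N ⊓ Subgroup.centralizer ({z} : Set H) := by
      refine Subgroup.mem_inf.mpr ⟨hn, ?_⟩
      rw [Subgroup.mem_centralizer_iff]
      intro y hy
      rw [Set.mem_singleton_iff] at hy
      rw [hy]; exact hcomm
    rw [hNz] at this
    exact Subgroup.mem_bot.mp this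
  have hfixe : ∀ e ∈ E, e ≠ 1 → ∀ n ∈ N, e * n = n * e → n = 1 := by
    intro e heE he1 n hn hcomm
    obtain ⟨g, hg⟩ := isConj_iff.mp (hc e heE he1)
    have h1 : g⁻¹ * n * g ∈ N := by
      have := hNn.conj_mem n hn g⁻¹
      rwa [inv_inv] at this
    have h2 : z * (g⁻¹ * n * g) = (g⁻¹ * n * g) * z := by
      have e1 : z * (g⁻¹ * n * g) = g⁻¹ * ((g * z * g⁻¹) * n) * g := by group
      have e2 : (g⁻¹ * n * g) * z = g⁻¹ * (n * (g * z * g⁻¹)) * g := by group
      rw [e1, e2, hg, hcomm]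
    have h3 := hfixz _ h1 h2
    have h4 : n = g * (g⁻¹ * n * g) * g⁻¹ := by group
    rw [h4, h3]; group
  have hexp : ∀ e ∈ E, e * e = 1 := by
    intro e he
    have h1 : (⟨e, he⟩ : E) ^ 2 = 1 := by
      have := Monoid.pow_exponent_eq_one (⟨e, he⟩ : E)
      rwa [hE.exponent_two] at this
    have h2 : e ^ 2 = 1 := congrArg Subtype.val h1
    rwa [pow_two] at h2
  letI : Fintype E := Fintype.ofFinite _
  have hcard : Fintype.card E = 4 := by rw [← Nat.card_eq_fintype_card]; exact hE.card_four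
  obtain ⟨e, -, he⟩ := Finset.exists_mem_notMem_of_card_lt_card
    (s := ({1, ⟨z, hzE⟩} : Finset E)) (t := Finset.univ)
    (by rw [Finset.card_univ, hcard]; exact lt_of_le_of_lt (Finset.card_insert_le _ _) (by simp))
  simp only [Finset.mem_insert, Finset.mem_singleton, not_or] at he
  obtain ⟨he1, hez⟩ := he
  have he1' : (e : H) ≠ 1 := fun h => he1 (Subtype.ext h)
  have hez' : (e : H) ≠ z := fun h => hez (Subtype.ext h)
  have hze1 : z * (e : H) ≠ 1 := by
    intro h
    apply hez'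
    have h2 : (e : H) = z * (z * e) := by rw [← mul_assoc, hzz, one_mul]
    rw [h2, h, mul_one]
  have hzeE : z * (e : H) ∈ E := E.mul_mem hzE e.2
  have i1 := inv_of_fpf_involution N hNn z hzz hfixz
  have i2 := inv_of_fpf_involution N hNn (e : H) (hexp _ e.2) (hfixe _ e.2 he1')
  have i3 := inv_of_fpf_involution N hNn (z * (e : H)) (hexp _ hzeE) (hfixe _ hzeE hze1)
  rw [Subgroup.eq_bot_iff_forall]
  intro n hn
  have j1 := i1 n hn
  have j2 := i2 n hn
  have j3 := i3 n hn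
  have j4 := i1 n⁻¹ (N.inv_mem hn)
  have h5 : z * (e : H) * n * (z * (e : H))⁻¹ = z * ((e : H) * n * (e : H)⁻¹) * z⁻¹ := by group
  rw [h5, j2, j4, inv_inv] at j3
  -- j3 : n = n⁻¹
  apply hfixz n hn
  have h6 : z * n = (z * n * z⁻¹) * z := by group
  rw [h6, j1, ← j3]

end Cfsg.Agent.Lib.Helper2
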