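import Mathlib

set_option autoImplicit false

namespace Cfsg.Agent.Lib.Helper2.FreeLaw

/-- Partial-permutation realisation of a reduced word as a path. -/
theorem free_path_perm {X : Type*} [DecidableEq X] (pt : ℕ → X) :
    ∀ L : List (ℕ × Bool), FreeGroup.IsReduced L →
      (∀ i ≤ L.length, ∀ j ≤ L.length, pt i = pt j → i = j) →
      ∃ f : ℕ → Equiv.Perm X,
        (∀ j a, L[j]? = some (a, true) → f a (pt (j + 1)) = pt j) ∧
        (∀ j a, L[j]? = some (a, false) → f a (pt j) = pt (j + 1)) ∧
        (∀ a x, (∀ j ≤ L.length, x ≠ pt j) → f a x = x) := by
  intro L
  induction L using List.reverseRecOn with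
  | nil =>
    intro _ _
    refine ⟨fun _ => 1, ?_, ?_, ?_⟩
    · intro j a h; simp at h
    · intro j a h; simp at h
    · intro a x _; rfl
  | append_singleton L' l ih =>
    intro hred hinj
    obtain ⟨a, b⟩ := l
    have hlen : (L' ++ [(a, b)]).length = L'.length + 1 := by simp
    rw [hlen] at hinj
    have hred' : FreeGroup.IsReduced L' := List.IsChain.left_of_append hred
    have hlast : ∀ j b', L'[j]? = some (a, b') → j + 1 = L'.length → b' = b := by
      intro j b' hj hjk
      have h1 := (List.isChain_append.1 hred).2.2
      have h2 : L'.getLast? = some (a, b') := by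
        rw [List.getLast?_eq_getElem?]
        have : L'.length - 1 = j := by omega
        rw [this]; exact hj
      exact h1 (a, b') (by rw [h2]; rfl) (a, b) (by simp) rfl
    obtain ⟨f', h1, h2, h3⟩ := ih hred'
      (fun i hi j hj h => hinj i (by omega) j (by omega) h)
    have hlt : ∀ j x, L'[j]? = some x → j < L'.length := by
      intro j x h
      exact (List.getElem?_eq_some_iff.mp h).1
    have hget : ∀ j x, (L' ++ [(a, b)])[j]? = some x →
        (j < L'.length ∧ L'[j]? = some x) ∨ (j = L'.length ∧ x = (a, b)) := by
      intro j x h
      rw [List.getElem?_append] at h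
      split_ifs at h with hj
      · exact Or.inl ⟨hj, h⟩
      · right
        have hj' : j - L'.length < [(a, b)].length := (List.getElem?_eq_some_iff.mp h).1
        simp at hj'
        have hjk : j = L'.length := by omega
        subst hjk
        simp at h
        exact ⟨rfl, h.symm⟩
    set k := L'.length with hk
    have hne : ∀ i ≤ k + 1, ∀ j ≤ k + 1, i ≠ j → pt i ≠ pt j :=
      fun i hi j hj hij h => hij (hinj i hi j hj h)
    cases b with
    | true =>
      refine ⟨Function.update f' a (f' a * Equiv.swap (pt (k + 1)) ((f' a)⁻¹ (pt k))),
        ?_, ?_, ?_⟩
      · intro j a' h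
        rcases hget j _ h with ⟨hj, hj'⟩ | ⟨hj, hx⟩
        · have e := h1 j a' hj'
          by_cases haa : a' = a
          · subst haa
            rw [Function.update_self, Equiv.Perm.mul_apply, Equiv.swap_apply_of_ne_of_ne, e]
            · exact hne _ (by omega) _ (by omega) (by omega)
            · intro hh
              have : f' a' (pt (j + 1)) = pt k := by rw [hh]; simp
              rw [e] at this
              exact hne j (by omega) k (by omega) (by omega) this
          · rw [Function.update_of_ne haa]; exact e
        · have haa : a' = a := by simpa using congrArg Prod.fst hx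
          subst haa
          subst hj
          rw [Function.update_self, Equiv.Perm.mul_apply, Equiv.swap_apply_left]
          simp
      · intro j a' h
        rcases hget j _ h with ⟨hj, hj'⟩ | ⟨hj, hx⟩
        · have e := h2 j a' hj'
          by_cases haa : a' = a
          · subst haa
            rw [Function.update_self, Equiv.Perm.mul_apply, Equiv.swap_apply_of_ne_of_ne, e]
            · exact hne _ (by omega) _ (by omega) (by omega)
            · intro hh
              have : f' a' (pt j) = pt k := by rw [hh]; simp
              rw [e] at this
              by_cases hjk : j + 1 = k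
              · have := hlast j false hj' hjk
                simp at this
              · exact hne (j + 1) (by omega) k (by omega) hjk this
          · rw [Function.update_of_ne haa]; exact e
        · simp at hx
      · intro a' x hx
        have hx' : f' a' x = x := h3 a' x (fun j hj => hx j (by omega))
        by_cases haa : a' = a
        · subst haa
          rw [Function.update_self, Equiv.Perm.mul_apply, Equiv.swap_apply_of_ne_of_ne, hx']
          · exact hx (k + 1) (by rw [hlen])
          · intro hh
            have : f' a' x = pt k := by rw [hh]; simp
            rw [hx'] at this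
            exact hx k (by omega) this
        · rw [Function.update_of_ne haa]; exact hx'
    | false =>
      refine ⟨Function.update f' a (Equiv.swap (pt (k + 1)) (f' a (pt k)) * f' a),
        ?_, ?_, ?_⟩
      · intro j a' h
        rcases hget j _ h with ⟨hj, hj'⟩ | ⟨hj, hx⟩
        · have e := h1 j a' hj'
          by_cases haa : a' = a
          · subst haa
            rw [Function.update_self, Equiv.Perm.mul_apply, e, Equiv.swap_apply_of_ne_of_ne]
            · exact hne _ (by omega) _ (by omega) (by omega)
            · intro hh
              rw [← e] at hh
              have := (f' a').injective hh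
              by_cases hjk : j + 1 = k
              · have := hlast j true hj' hjk
                simp at this
              · exact hne (j + 1) (by omega) k (by omega) hjk this
          · rw [Function.update_of_ne haa]; exact e
        · simp at hx
      · intro j a' h
        rcases hget j _ h with ⟨hj, hj'⟩ | ⟨hj, hx⟩
        · have e := h2 j a' hj'
          by_cases haa : a' = a
          · subst haa
            rw [Function.update_self, Equiv.Perm.mul_apply, e, Equiv.swap_apply_of_ne_of_ne]
            · exact hne _ (by omega) _ (by omega) (by omega)
            · intro hh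
              rw [← e] at hh
              have := (f' a').injective hh
              exact hne j (by omega) k (by omega) (by omega) this
          · rw [Function.update_of_ne haa]; exact e
        · have haa : a' = a := by simpa using congrArg Prod.fst hx
          subst haa
          subst hj
          rw [Function.update_self, Equiv.Perm.mul_apply, Equiv.swap_apply_right]
      · intro a' x hx
        have hx' : f' a' x = x := h3 a' x (fun j hj => hx j (by omega))
        by_cases haa : a' = a
        · subst haa
          rw [Function.update_self, Equiv.Perm.mul_apply, hx', Equiv.swap_apply_of_ne_of_ne]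
          · exact hx (k + 1) (by rw [hlen])
          · intro hh
            rw [← hx'] at hh
            have := (f' a').injective hh
            exact hx k (by omega) this
        · rw [Function.update_of_ne haa]; exact hx'

/-- Evaluation of a word along a path. -/
theorem free_path_eval {Γ X : Type*} [Group Γ] [MulAction Γ X] (pt : ℕ → X) (g : ℕ → Γ) :
    ∀ L : List (ℕ × Bool),
      (∀ j a, L[j]? = some (a, true) → g a • pt (j + 1) = pt j) →
      (∀ j a, L[j]? = some (a, false) → g a • pt j = pt (j + 1)) →
      (L.map fun x => cond x.2 (g x.1) (g x.1)⁻¹).prod • pt L.length = pt 0 := by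
  intro L
  induction L using List.reverseRecOn with
  | nil =>
    intro _ _
    simp
  | append_singleton L' l ih =>
    intro h1 h2
    obtain ⟨a, b⟩ := l
    have hlift : ∀ (j : ℕ) (x : ℕ × Bool), L'[j]? = some x →
        (L' ++ [(a, b)])[j]? = some x := by
      intro j x h
      have hj : j < L'.length := (List.getElem?_eq_some_iff.mp h).1
      rw [List.getElem?_append_left hj]; exact h
    have ih' := ih (fun j a' h => h1 j a' (hlift j _ h)) (fun j a' h => h2 j a' (hlift j _ h))
    have hk : (L' ++ [(a, b)])[L'.length]? = some (a, b) := by simp
    rw [List.map_append, List.prod_append, List.length_append, mul_smul]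
    simp only [List.map_cons, List.map_nil, List.prod_cons, List.prod_nil, mul_one,
      List.length_cons, List.length_nil, zero_add]
    cases b with
    | true =>
      have := h1 _ a hk
      simp only [cond_true]
      rw [this]; exact ih'
    | false =>
      have := h2 _ a hk
      simp only [cond_false]
      rw [inv_smul_eq_iff.mpr this.symm]; exact ih'

/-- A nontrivial law fails in all large alternating groups. -/
theorem law_alt (w : FreeGroup ℕ) (hw : w ≠ 1) :
    ∃ N : ℕ, ∀ n : ℕ, N ≤ n → ∃ f : ℕ → alternatingGroup (Fin n), FreeGroup.lift f w ≠ 1 := by
  have hL : w.toWord ≠ [] := fun h => hw (FreeGroup.toWord_eq_nil_iff.mp h)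
  have hred : FreeGroup.IsReduced w.toWord := FreeGroup.isReduced_toWord
  set L := w.toWord with hLdef
  set k := L.length with hk
  have hkpos : 0 < k := List.length_pos_iff.mpr hL
  refine ⟨k + 3, fun n hn => ?_⟩
  have hn0 : 0 < n := by omega
  let pt : ℕ → Fin n := fun j => if h : j < n then ⟨j, h⟩ else ⟨0, hn0⟩
  have hpt : ∀ i < n, ∀ j < n, pt i = pt j → i = j := by
    intro i hi j hj h
    simp only [pt, dif_pos hi, dif_pos hj] at h
    exact congrArg Fin.val h
  obtain ⟨f, h1, h2, h3⟩ := free_path_perm pt L hred
    (fun i hi j hj h => hpt i (by omega) j (by omega) h)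
  have huv : pt (k + 1) ≠ pt (k + 2) := fun h => by
    have := hpt _ (by omega) _ (by omega) h
    omega
  have hsw : ∀ i ≤ k, Equiv.swap (pt (k + 1)) (pt (k + 2)) (pt i) = pt i := by
    intro i hi
    apply Equiv.swap_apply_of_ne_of_ne
    · intro h
      have := hpt _ (by omega) _ (by omega) h
      omega
    · intro h
      have := hpt _ (by omega) _ (by omega) h
      omega
  let f' : ℕ → Equiv.Perm (Fin n) := fun a =>
    if Equiv.Perm.sign (f a) = 1 then f a else f a * Equiv.swap (pt (k + 1)) (pt (k + 2))
  have hf'mem : ∀ a, f' a ∈ alternatingGroup (Fin n) := by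
    intro a
    rw [Equiv.Perm.mem_alternatingGroup]
    by_cases hs : Equiv.Perm.sign (f a) = 1
    · simp only [f', if_pos hs]; exact hs
    · simp only [f', if_neg hs]
      rw [Equiv.Perm.sign_mul, Equiv.Perm.sign_swap huv]
      rcases Int.units_eq_one_or (Equiv.Perm.sign (f a)) with h | h
      · exact absurd h hs
      · rw [h]; rfl
  have hf'pt : ∀ a, ∀ i ≤ k, f' a (pt i) = f a (pt i) := by
    intro a i hi
    by_cases hs : Equiv.Perm.sign (f a) = 1
    · simp only [f', if_pos hs]
    · simp only [f', if_neg hs]
      rw [Equiv.Perm.mul_apply, hsw i hi]
  obtain ⟨F, hF⟩ : ∃ F : ℕ → alternatingGroup (Fin n), ∀ a x, (F a) • x = f' a x :=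
    ⟨fun a => ⟨f' a, hf'mem a⟩, fun a x => rfl⟩
  refine ⟨F, ?_⟩
  intro hone
  have hev := free_path_eval (Γ := alternatingGroup (Fin n)) (X := Fin n) pt F L ?_ ?_
  · have hev' : (FreeGroup.lift F (FreeGroup.mk L)) • pt L.length = pt 0 := by
      rw [FreeGroup.lift_mk]; exact hev
    rw [FreeGroup.mk_toWord, hone, one_smul] at hev'
    have := hpt _ (by omega) _ (by omega) hev'
    omega
  · intro j a h
    have hj : j < k := (List.getElem?_eq_some_iff.mp h).1
    rw [hF, hf'pt a _ (by omega)]
    exact h1 j a h
  · intro j a h
    have hj : j < k := (List.getElem?_eq_some_iff.mp h).1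
    rw [hF, hf'pt a _ (by omega)]
    exact h2 j a h

end Cfsg.Agent.Lib.Helper2.FreeLaw
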