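import Cfsg.Agent.Lib.Helper2.WellPlaced

set_option autoImplicit false

namespace Cfsg.Agent.Lib.Helper2

open Subgroup Cfsg

section ChainSec

variable {G : Type*} [Group G]

theorem cj_congr {A : Set G} {g k : G} (h : ∀ a ∈ A, g⁻¹ * a * g = k⁻¹ * a * k) :
    cj A g = cj A k := Set.image_congr h

theorem image_lconj_eq_cj (A : Set G) (c : G) : (fun a => c * a * c⁻¹) '' A = cj A c⁻¹ := by
  unfold cj
  rw [inv_inv]

/-- Chains of steps taken from `R`, all of whose images lie in `S`. -/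
inductive Ch (R : G → Prop) (S : Set G) : Set G → G → Prop
  | nil (A : Set G) : Ch R S A 1
  | cons (A : Set G) (x g : G) (hR : R x) (hS : cj A x ⊆ S) (h : Ch R S (cj A x) g) :
      Ch R S A (x * g)

theorem Ch.mono {R : G → Prop} {S : Set G} {A : Set G} {g : G} (h : Ch R S A g) :
    ∀ A' : Set G, A' ⊆ A → Ch R S A' g := by
  induction h with
  | nil A => intro A' _; exact Ch.nil A'
  | cons A x g hR hS _ ih =>
    intro A' hA'
    exact Ch.cons A' x g hR ((cj_mono hA' x).trans hS) (ih _ (cj_mono hA' x))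

theorem Ch.trans {R : G → Prop} {S : Set G} {A : Set G} {g : G} (h : Ch R S A g) :
    ∀ k : G, Ch R S (cj A g) k → Ch R S A (g * k) := by
  induction h with
  | nil A => intro k hk; rw [cj_one] at hk; rw [one_mul]; exact hk
  | cons A x g hR hS _ ih =>
    intro k hk
    rw [← cj_mul] at hk
    rw [mul_assoc]
    exact Ch.cons A x (g * k) hR hS (ih k hk)

theorem Ch.single {R : G → Prop} {S : Set G} {A : Set G} {x : G} (hR : R x)
    (hS : cj A x ⊆ S) : Ch R S A x := by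
  have := Ch.cons A x 1 hR hS (Ch.nil _)
  rwa [mul_one] at this

theorem Ch.symm {R : G → Prop} {S : Set G} (hinv : ∀ x, R x → R x⁻¹) {A : Set G} {g : G}
    (h : Ch R S A g) : A ⊆ S → Ch R S (cj A g) g⁻¹ := by
  induction h with
  | nil A => intro _; rw [cj_one, inv_one]; exact Ch.nil A
  | cons A x g hR hS _ ih =>
    intro hA
    rw [mul_inv_rev, ← cj_mul]
    refine Ch.trans (ih hS) x⁻¹ ?_
    have e : cj (cj (cj A x) g) g⁻¹ = cj A x := by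
      rw [cj_mul (cj A x) g g⁻¹, mul_inv_cancel, cj_one]
    rw [e]
    refine Ch.single (hinv x hR) ?_
    rw [cj_mul, mul_inv_cancel, cj_one]
    exact hA

theorem Ch.toFinChain {R : G → Prop} {S : Set G} (hinv : ∀ x, R x → R x⁻¹) {A : Set G} {g : G}
    (h : Ch R S A g) : A ⊆ S →
    ∃ (n : ℕ) (c : Fin (n + 1) → G), c 0 = 1 ∧
      (∀ i : Fin n, R (c i.succ * (c i.castSucc)⁻¹)) ∧
      (∀ i : Fin (n + 1), (fun a => c i * a * (c i)⁻¹) '' A ⊆ S) ∧ c (Fin.last n) = g⁻¹ := by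
  induction h with
  | nil A =>
    intro hA
    refine ⟨0, fun _ => 1, rfl, fun i => i.elim0, fun i => ?_, by simp⟩
    rintro _ ⟨a, ha, rfl⟩
    simpa using hA ha
  | cons A x g hR hS _ ih =>
    intro hA
    obtain ⟨n, c', hc0, hcstep, hcim, hclast⟩ := ih hS
    refine ⟨n + 1, Fin.cons 1 (fun i => c' i * x⁻¹), rfl, ?_, ?_, ?_⟩
    · intro i
      refine Fin.cases ?_ ?_ i
      · rw [Fin.cons_succ, Fin.castSucc_zero, Fin.cons_zero, hc0]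
        simpa using hinv x hR
      · intro j
        rw [Fin.cons_succ, ← Fin.succ_castSucc, Fin.cons_succ]
        have e : c' j.succ * x⁻¹ * (c' j.castSucc * x⁻¹)⁻¹ = c' j.succ * (c' j.castSucc)⁻¹ := by
          group
        rw [e]
        exact hcstep j
    · intro i
      refine Fin.cases ?_ ?_ i
      · rintro _ ⟨a, ha, rfl⟩
        simpa using hA ha
      · intro j
        rintro _ ⟨a, ha, rfl⟩
        rw [Fin.cons_succ]
        have h1 : c' j * (x⁻¹ * a * x) * (c' j)⁻¹ ∈ S := hcim j ⟨x⁻¹ * a * x, ⟨a, ha, rfl⟩, rfl⟩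
        have e : c' j * x⁻¹ * a * (c' j * x⁻¹)⁻¹ = c' j * (x⁻¹ * a * x) * (c' j)⁻¹ := by group
        show c' j * x⁻¹ * a * (c' j * x⁻¹)⁻¹ ∈ S
        rw [e]
        exact h1
    · rw [← Fin.succ_last, Fin.cons_succ, hclast, mul_inv_rev]

/-- `Gen R S A k`: on `A`, conjugation by `k` agrees with a chain of steps from `R`. -/
def Gen (R : G → Prop) (S : Set G) (A : Set G) (k : G) : Prop :=
  ∃ g' : G, Ch R S A g' ∧ ∀ a ∈ A, g'⁻¹ * a * g' = k⁻¹ * a * k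

theorem Gen.mono {R : G → Prop} {S A A' : Set G} {k : G} (h : Gen R S A k) (hA : A' ⊆ A) :
    Gen R S A' k := by
  obtain ⟨g', hc, ha⟩ := h
  exact ⟨g', hc.mono _ hA, fun a h => ha a (hA h)⟩

theorem Gen.congr {R : G → Prop} {S A : Set G} {k k' : G} (h : Gen R S A k)
    (hk : ∀ a ∈ A, k⁻¹ * a * k = k'⁻¹ * a * k') : Gen R S A k' := by
  obtain ⟨g', hc, ha⟩ := h
  exact ⟨g', hc, fun a h => (ha a h).trans (hk a h)⟩

theorem Gen.of_centralizes {R : G → Prop} {S A : Set G} {k : G}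
    (hk : ∀ a ∈ A, k⁻¹ * a * k = a) : Gen R S A k :=
  ⟨1, Ch.nil A, fun a h => by rw [hk a h]; group⟩

theorem Gen.step {R : G → Prop} {S A : Set G} {x : G} (hR : R x) (hS : cj A x ⊆ S) :
    Gen R S A x := ⟨x, Ch.single hR hS, fun _ _ => rfl⟩

theorem Gen.trans {R : G → Prop} {S A : Set G} {k l : G} (h1 : Gen R S A k)
    (h2 : Gen R S (cj A k) l) : Gen R S A (k * l) := by
  obtain ⟨g₁, c₁, a₁⟩ := h1
  obtain ⟨g₂, c₂, a₂⟩ := h2
  rw [← cj_congr a₁] at c₂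
  refine ⟨g₁ * g₂, c₁.trans g₂ c₂, fun a ha => ?_⟩
  have e1 : (g₁ * g₂)⁻¹ * a * (g₁ * g₂) = g₂⁻¹ * (g₁⁻¹ * a * g₁) * g₂ := by group
  have e2 : (k * l)⁻¹ * a * (k * l) = l⁻¹ * (k⁻¹ * a * k) * l := by group
  rw [e1, e2, a₁ a ha]
  exact a₂ _ ⟨a, ha, rfl⟩

theorem Gen.symm {R : G → Prop} {S A : Set G} {k : G} (hinv : ∀ x, R x → R x⁻¹)
    (h : Gen R S A k) (hA : A ⊆ S) : Gen R S (cj A k) k⁻¹ := by
  obtain ⟨g₁, c₁, a₁⟩ := h
  refine ⟨g₁⁻¹, ?_, ?_⟩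
  · rw [← cj_congr a₁]; exact c₁.symm hinv hA
  · rintro _ ⟨a, ha, rfl⟩
    show g₁⁻¹⁻¹ * (k⁻¹ * a * k) * g₁⁻¹ = k⁻¹⁻¹ * (k⁻¹ * a * k) * k⁻¹
    rw [← a₁ a ha]
    have e1 : g₁⁻¹⁻¹ * (g₁⁻¹ * a * g₁) * g₁⁻¹ = a := by group
    rw [e1, a₁ a ha]
    group

theorem fin_chain_induction (Pr : Set G → G → Prop) (hrefl : ∀ A, Pr A 1)
    (htrans : ∀ A k l, Pr A k → Pr (cj A k) l → Pr A (k * l)) (A : Set G) (n : ℕ)
    (c : Fin (n + 1) → G) (h0 : c 0 = 1)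
    (hstep : ∀ i : Fin n, Pr (cj A (c i.castSucc)⁻¹) ((c i.succ * (c i.castSucc)⁻¹)⁻¹)) :
    Pr A (c (Fin.last n))⁻¹ := by
  have key : ∀ i : ℕ, ∀ hi : i < n + 1, Pr A (c ⟨i, hi⟩)⁻¹ := by
    intro i
    induction i with
    | zero =>
      intro hi
      have e : c ⟨0, hi⟩ = 1 := h0
      rw [e, inv_one]; exact hrefl A
    | succ i ih =>
      intro hi
      have hi' : i < n := Nat.lt_of_succ_lt_succ hi
      have h1 := ih (Nat.lt_succ_of_lt hi')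
      have h2 : Pr (cj A (c ⟨i, Nat.lt_succ_of_lt hi'⟩)⁻¹)
          ((c ⟨i + 1, hi⟩ * (c ⟨i, Nat.lt_succ_of_lt hi'⟩)⁻¹)⁻¹) := hstep ⟨i, hi'⟩
      have h3 := htrans A _ _ h1 h2
      have e : (c ⟨i, Nat.lt_succ_of_lt hi'⟩)⁻¹ *
          (c ⟨i + 1, hi⟩ * (c ⟨i, Nat.lt_succ_of_lt hi'⟩)⁻¹)⁻¹ = (c ⟨i + 1, hi⟩)⁻¹ := by group
      rw [e] at h3
      exact h3
  exact key n (Nat.lt_succ_self n)

end ChainSec

section SylowConj

variable {G : Type*} [Group G] [Finite G] {p : ℕ} [Fact p.Prime]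

theorem exists_conj_eq_of_sylow_in (H T₁ T₀ : Subgroup G) (hT₁H : T₁ ≤ H) (hT₁p : IsPGroup p T₁)
    (hT₁i : ¬ p ∣ T₁.relIndex H) (hT₀H : T₀ ≤ H) (hT₀p : IsPGroup p T₀)
    (hT₀i : ¬ p ∣ T₀.relIndex H) :
    ∃ v ∈ H, T₁.map (MulAut.conj v).toMonoidHom = T₀ := by
  obtain ⟨r, ⟨r', -, rfl⟩, hr⟩ := exists_pResidual_conj_le H T₀ T₁ hT₀p hT₀i hT₁H hT₁p
  refine ⟨H.subtype r', r'.2, ?_⟩
  have hinj : Function.Injective (MulAut.conj (H.subtype r')).toMonoidHom :=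
    (MulAut.conj _).injective
  have hmapH : H.map (MulAut.conj (H.subtype r')).toMonoidHom = H := map_conj_eq_of_mem r'.2
  have e := relIndex_map_map_of_injective T₁ H hinj
  rw [hmapH] at e
  apply eq_of_le_of_not_dvd_relIndex (p := p) (N := H) ?_ hT₀H hT₀p ?_
  · rintro _ ⟨x, hx, rfl⟩; exact hr x hx
  · rw [e]; exact hT₁i

theorem exists_fullyNormalized_conj (S : Sylow p G) (V : Subgroup G) :
    ∃ u : G, ((S : Subgroup G) ⊓ normalizer (V : Set G)).map (MulAut.conj u).toMonoidHom ≤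
        (S : Subgroup G) ∧
      ¬ p ∣ ((S : Subgroup G) ⊓ normalizer ((V.map (MulAut.conj u).toMonoidHom : Subgroup G) : Set G)).relIndex
        (normalizer ((V.map (MulAut.conj u).toMonoidHom : Subgroup G) : Set G)) := by
  obtain ⟨Q, hXQ, hQsyl⟩ := exists_sylow_ge_of_le_normalizer (p := p) (normalizer (V : Set G))
    ((S : Subgroup G) ⊓ normalizer (V : Set G)) inf_le_right (S.2.to_le inf_le_left)
  obtain ⟨c, hc⟩ := MulAction.exists_smul_eq G S Q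
  have hQS : (Q : Subgroup G).map (MulAut.conj c⁻¹).toMonoidHom = S := by
    ext z
    rw [mem_map_conj_iff, inv_inv, ← hc, mem_sylow_smul_iff]
    have e : c⁻¹ * (c * z * c⁻¹) * c = z := by group
    rw [e]
  refine ⟨c⁻¹, (map_mono hXQ).trans hQS.le, ?_⟩
  have h1 := not_dvd_relIndex_conj (p := p) (Q : Subgroup G) V c⁻¹ hQsyl
  rwa [hQS] at h1

theorem familyControls_change_sylow (𝓦 : Set (Subgroup G → Subgroup G))
    (h𝓦 : ∀ W ∈ 𝓦, IsConjugacyFunctor p W) (H : Subgroup G)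
    (hH : FamilyControlsStrongFusionIn p 𝓦 H) (T₁ : Subgroup G) (hT₁H : T₁ ≤ H)
    (hT₁p : IsPGroup p T₁) (hT₁i : ¬ p ∣ T₁.relIndex H) :
    ∀ (A : Set G) (h : G), h ∈ H → A ⊆ T₁ → (fun a => h * a * h⁻¹) '' A ⊆ T₁ →
      ∃ (n : ℕ) (c : Fin (n + 1) → G), c 0 = 1 ∧
        (∀ i : Fin n, ∃ W ∈ 𝓦,
          c i.succ * (c i.castSucc)⁻¹ ∈ H ⊓ normalizer ((W T₁ : Subgroup G) : Set G)) ∧
        (∀ i : Fin (n + 1), (fun a => c i * a * (c i)⁻¹) '' A ⊆ T₁) ∧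
        ∀ a ∈ A, c (Fin.last n) * a * (c (Fin.last n))⁻¹ = h * a * h⁻¹ := by
  obtain ⟨T₀, hT₀H, hT₀p, hT₀i, hctl⟩ := hH
  obtain ⟨v, hvH, hv⟩ := exists_conj_eq_of_sylow_in H T₁ T₀ hT₁H hT₁p hT₁i hT₀H hT₀p hT₀i
  intro A h hh hA hAh
  have hT₀mem : ∀ x, x ∈ T₀ ↔ v⁻¹ * x * v ∈ T₁ := by
    intro x; rw [← hv, mem_map_conj_iff]
  have hA' : (fun a => v * a * v⁻¹) '' A ⊆ (T₀ : Set G) := by
    rintro _ ⟨a, ha, rfl⟩
    rw [SetLike.mem_coe, hT₀mem]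
    have e : v⁻¹ * (v * a * v⁻¹) * v = a := by group
    rw [e]; exact hA ha
  have hAh' : (fun a => (v * h * v⁻¹) * a * (v * h * v⁻¹)⁻¹) '' ((fun a => v * a * v⁻¹) '' A) ⊆
      (T₀ : Set G) := by
    rintro _ ⟨_, ⟨a, ha, rfl⟩, rfl⟩
    rw [SetLike.mem_coe, hT₀mem]
    have e : v⁻¹ * ((v * h * v⁻¹) * (v * a * v⁻¹) * (v * h * v⁻¹)⁻¹) * v = h * a * h⁻¹ := by group
    rw [e]; exact hAh ⟨a, ha, rfl⟩
  obtain ⟨n, c, hc0, hcstep, hcim, hclast⟩ := hctl ((fun a => v * a * v⁻¹) '' A) (v * h * v⁻¹)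
    (mul_mem (mul_mem hvH hh) (inv_mem hvH)) hA' hAh'
  refine ⟨n, fun i => v⁻¹ * c i * v, ?_, ?_, ?_, ?_⟩
  · show v⁻¹ * c 0 * v = 1
    rw [hc0]; group
  · intro i
    obtain ⟨W, hW, hs⟩ := hcstep i
    refine ⟨W, hW, ?_⟩
    have e : v⁻¹ * c i.succ * v * (v⁻¹ * c i.castSucc * v)⁻¹ =
        v⁻¹ * (c i.succ * (c i.castSucc)⁻¹) * v := by group
    rw [e]
    refine Subgroup.mem_inf.mpr ⟨mul_mem (mul_mem (inv_mem hvH) hs.1) hvH, ?_⟩
    have h1 : c i.succ * (c i.castSucc)⁻¹ ∈ normalizer ((W T₀ : Subgroup G) : Set G) := hs.2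
    rw [← hv, (h𝓦 W hW T₁ hT₁p).2.2 v, normalizer_map_conj, mem_map_conj_iff] at h1
    exact h1
  · intro i
    rintro _ ⟨a, ha, rfl⟩
    have h1 := hcim i ⟨v * a * v⁻¹, ⟨a, ha, rfl⟩, rfl⟩
    rw [SetLike.mem_coe, hT₀mem] at h1
    have e : v⁻¹ * (c i * (v * a * v⁻¹) * (c i)⁻¹) * v = v⁻¹ * c i * v * a * (v⁻¹ * c i * v)⁻¹ := by
      group
    rw [e] at h1
    exact h1
  · intro a ha
    have h1 := hclast (v * a * v⁻¹) ⟨a, ha, rfl⟩
    have e1 : v⁻¹ * c (Fin.last n) * v * a * (v⁻¹ * c (Fin.last n) * v)⁻¹ =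
        v⁻¹ * (c (Fin.last n) * (v * a * v⁻¹) * (c (Fin.last n))⁻¹) * v := by group
    rw [e1, h1]; group

end SylowConj

end Cfsg.Agent.Lib.Helper2
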