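import Mathlib
import Cfsg.Prelude.Def_LieExceptional
import Cfsg.Agent.Lib.Helper2.Sz8

set_option autoImplicit false

namespace Cfsg.Agent.Lib.Helper2.SzL

section FieldW

variable {F : Type*} [Field F] [Fintype F] {m : ℕ}

/-- the additive map `u ↦ θ(u) + u` -/
def thW (hF : Fintype.card F = 2 ^ (2 * m + 1)) : F →+ F where
  toFun u := th m u + u
  map_zero' := by rw [th_zero, add_zero]
  map_add' u v := by rw [th_add hF]; ring

theorem thW_apply (hF : Fintype.card F = 2 ^ (2 * m + 1)) (u : F) :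
    thW (m := m) hF u = th m u + u := rfl

theorem th_fix (hF : Fintype.card F = 2 ^ (2 * m + 1)) {u : F} (h : th m u = u) :
    u = 0 ∨ u = 1 := by
  have h1 : u ^ 2 = u := by rw [← th_th hF, h, h]
  have h2 : u * (u - 1) = 0 := by rw [mul_sub, mul_one, ← pow_two, h1, sub_self]
  rcases mul_eq_zero.mp h2 with h3 | h3
  · exact Or.inl h3
  · exact Or.inr (sub_eq_zero.mp h3)

theorem one_not_mem_thW (hF : Fintype.card F = 2 ^ (2 * m + 1)) :
    (1 : F) ∉ (thW (m := m) hF).range := by
  rintro ⟨u, hu⟩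
  rw [thW_apply] at hu
  have h1 : th m u = u + 1 := by
    have := add_self hF u
    calc th m u = th m u + u + u := by rw [add_assoc, this, add_zero]
      _ = u + 1 := by rw [hu]; ring
  have h2 : th m (th m u) = u := by
    rw [h1, th_add hF, th_one, h1, add_assoc, add_self hF, add_zero]
  have h3 : u ^ 2 = u := by rw [← th_th hF, h2]
  have h4 : th m u = u := by
    have h2' : u * (u - 1) = 0 := by rw [mul_sub, mul_one, ← pow_two, h3, sub_self]
    rcases mul_eq_zero.mp h2' with h5 | h5
    · rw [h5, th_zero]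
    · rw [sub_eq_zero.mp h5, th_one]
  rw [h4, add_self hF] at hu
  exact zero_ne_one hu

theorem card_ker_thW (hF : Fintype.card F = 2 ^ (2 * m + 1)) :
    Nat.card (thW (m := m) hF).ker = 2 := by
  rw [Nat.card_eq_two_iff]
  refine ⟨⟨0, by rw [AddMonoidHom.mem_ker, map_zero]⟩,
    ⟨1, by rw [AddMonoidHom.mem_ker, thW_apply, th_one, add_self hF]⟩, ?_, ?_⟩
  · intro h
    exact zero_ne_one (congrArg Subtype.val h)
  · ext x
    simp only [Set.mem_insert_iff, Set.mem_singleton_iff, Set.mem_univ, iff_true]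
    have hx := x.2
    rw [AddMonoidHom.mem_ker, thW_apply] at hx
    have h1 : th m (x : F) = x := by
      have := add_self hF (x : F)
      calc th m (x : F) = th m (x : F) + x + x := by rw [add_assoc, this, add_zero]
        _ = x := by rw [hx, zero_add]
    rcases th_fix hF h1 with h2 | h2
    · exact Or.inl (Subtype.ext h2)
    · exact Or.inr (Subtype.ext h2)

theorem index_range_thW (hF : Fintype.card F = 2 ^ (2 * m + 1)) :
    (thW (m := m) hF).range.index = 2 := by
  have h1 := AddSubgroup.card_mul_index (thW (m := m) hF).ker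
  rw [AddSubgroup.index_ker, card_ker_thW hF] at h1
  have h2 := AddSubgroup.card_mul_index (thW (m := m) hF).range
  have h3 : 0 < Nat.card (thW (m := m) hF).range := Nat.card_pos
  rw [← h1] at h2
  have h4 : Nat.card (thW (m := m) hF).range * (thW (m := m) hF).range.index =
      Nat.card (thW (m := m) hF).range * 2 := by rw [h2, mul_comm]
  exact Nat.eq_of_mul_eq_mul_left h3 h4

theorem thW_cover (hF : Fintype.card F = 2 ^ (2 * m + 1)) (x : F) :
    x ∈ (thW (m := m) hF).range ∨ x + 1 ∈ (thW (m := m) hF).range := by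
  obtain ⟨a, ha⟩ := AddSubgroup.index_eq_two_iff.mp (index_range_thW (m := m) hF)
  have h1 : (1 : F) + a ∈ (thW (m := m) hF).range := by
    rcases ha 1 with ⟨h, _⟩ | ⟨h, _⟩
    · exact h
    · exact absurd h (one_not_mem_thW hF)
  rcases ha x with ⟨h, _⟩ | ⟨h, _⟩
  · right
    have h2 := add_mem h h1
    have h3 : x + a + (1 + a) = x + 1 := by
      have := add_self hF a
      calc x + a + (1 + a) = x + 1 + (a + a) := by ring
        _ = x + 1 := by rw [this, add_zero]
    rwa [h3] at h2
  · exact Or.inl h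

theorem thW_stab (hF : Fintype.card F = 2 ^ (2 * m + 1)) {c : F} (hc : c ≠ 0)
    (h : ∀ w ∈ (thW (m := m) hF).range, c * w ∈ (thW (m := m) hF).range) : c = 1 := by
  by_contra hc1
  have key : ∃ e : F, e ≠ 0 ∧ e ∈ (thW (m := m) hF).range ∧
      ∀ w ∈ (thW (m := m) hF).range, e * w ∈ (thW (m := m) hF).range := by
    by_cases hcW : c ∈ (thW (m := m) hF).range
    · exact ⟨c, hc, hcW, h⟩
    · have h1 : c + 1 ∈ (thW (m := m) hF).range := (thW_cover hF c).resolve_left hcW
      refine ⟨c + 1, ?_, h1, ?_⟩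
      · intro h0
        apply hc1
        have := add_self hF (1 : F)
        calc c = c + 1 + 1 := by rw [add_assoc, this, add_zero]
          _ = 1 := by rw [h0, zero_add]
      · intro w hw
        rw [add_mul, one_mul]
        exact add_mem (h w hw) hw
  obtain ⟨e, he0, heW, he⟩ := key
  have hpow : ∀ n : ℕ, e ^ n * e ∈ (thW (m := m) hF).range := by
    intro n
    induction n with
    | zero => rw [pow_zero, one_mul]; exact heW
    | succ n ih =>
      have := he _ ih
      rwa [← mul_assoc, ← pow_succ'] at this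
  have h1 := hpow (Fintype.card F - 2)
  have h2 : e ^ (Fintype.card F - 2) * e = 1 := by
    rw [← pow_succ]
    have h3 : Fintype.card F - 2 + 1 = Fintype.card F - 1 := by
      have : 2 ≤ Fintype.card F := by
        rw [hF]
        calc 2 = 2 ^ 1 := by norm_num
          _ ≤ 2 ^ (2 * m + 1) := Nat.pow_le_pow_right (by norm_num) (by omega)
      omega
    rw [h3]
    exact FiniteField.pow_card_sub_one_eq_one e he0
  rw [h2] at h1
  exact one_not_mem_thW hF h1

theorem thW_scale_unique (hF : Fintype.card F = 2 ^ (2 * m + 1)) (K : AddSubgroup F)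
    {b₀ : F} (hb₀ : b₀ ∉ K) {c₁ c₂ : F} (h1 : c₁ ≠ 0) (h2 : c₂ ≠ 0)
    (hK1 : ∀ w ∈ (thW (m := m) hF).range, c₁ * w ∈ K)
    (hK2 : ∀ w ∈ (thW (m := m) hF).range, c₂ * w ∈ K) : c₁ = c₂ := by
  have hc2K : c₂ ∉ K := by
    intro hc2
    apply hb₀
    rcases thW_cover (m := m) hF (b₀ / c₂) with h | h
    · have := hK2 _ h
      rwa [mul_div_cancel₀ _ h2] at this
    · have := hK2 _ h
      rw [mul_add, mul_div_cancel₀ _ h2, mul_one] at this
      have h3 := K.sub_mem this hc2
      rwa [add_sub_cancel_right] at h3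
  have hstab : ∀ w ∈ (thW (m := m) hF).range, c₁ / c₂ * w ∈ (thW (m := m) hF).range := by
    intro w hw
    rcases thW_cover (m := m) hF (c₁ / c₂ * w) with h | h
    · exact h
    · exfalso
      apply hc2K
      have h3 := hK2 _ h
      have h4 : c₂ * (c₁ / c₂ * w + 1) = c₁ * w + c₂ := by field_simp
      rw [h4] at h3
      have h5 := K.sub_mem h3 (hK1 w hw)
      rwa [add_sub_cancel_left] at h5
  have h3 := thW_stab hF (div_ne_zero h1 h2) hstab
  exact (div_eq_one_iff_eq h2).mp h3

/-- the radical of the commutator form relative to a proper subgroup has at most one nonzero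
element -/
theorem rad_unique (hF : Fintype.card F = 2 ^ (2 * m + 1)) (K : AddSubgroup F)
    {b₀ : F} (hb₀ : b₀ ∉ K) {a₁ a₂ : F} (h1 : a₁ ≠ 0) (h2 : a₂ ≠ 0)
    (hK1 : ∀ c : F, th m c * a₁ + th m a₁ * c ∈ K)
    (hK2 : ∀ c : F, th m c * a₂ + th m a₂ * c ∈ K) : a₁ = a₂ := by
  have aux : ∀ a : F, (∀ c : F, th m c * a + th m a * c ∈ K) →
      ∀ w ∈ (thW (m := m) hF).range, th m a * a * w ∈ K := by
    intro a ha w hw
    obtain ⟨u, rfl⟩ := hw
    have := ha (a * u)
    rw [thW_apply]
    have e : th m (a * u) * a + th m a * (a * u) = th m a * a * (th m u + u) := by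
      rw [th_mul]; ring
    rwa [e] at this
  have hne : ∀ a : F, a ≠ 0 → th m a * a ≠ 0 := fun a ha =>
    mul_ne_zero (fun h => ha (th_eq_zero.mp h)) ha
  exact thmul_inj hF (thW_scale_unique hF K hb₀ (hne a₁ h1) (hne a₂ h2) (aux a₁ hK1) (aux a₂ hK2))

end FieldW

end Cfsg.Agent.Lib.Helper2.SzL
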