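import Mathlib
import Cfsg.Prelude.Def_LieExceptional
import Cfsg.Prelude.Def_Characters
import Cfsg.Agent.Lib.Helper2.Sz24
import Cfsg.Agent.Lib.Helper2.LSz4
import Cfsg.Agent.Lib.Helper2.SzR1
import Cfsg.Agent.Lib.Lead.CharCentral2
import Cfsg.Agent.Lib.Lead.CharNorm
import Cfsg.Agent.Lib.Lead.CharCons
import Cfsg.Agent.Lib.Lead.CharComplete
import Cfsg.Agent.Lib.Lead.CharApps
import Cfsg.Agent.Lib.Lead.CharRing
import Cfsg.Agent.Lib.Lead.CharLin

set_option autoImplicit false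

namespace Cfsg.Agent.Lib.Helper2.SzL

open Cfsg.Agent.Lib.Lead
open scoped ComplexConjugate

section Abstract

theorem classInner_comp_equiv {Q : Type*} [Group Q] [Fintype Q] (σ : Q ≃* Q) (φ ψ : Q → ℂ) :
    Cfsg.classInner (φ ∘ σ) (ψ ∘ σ) = Cfsg.classInner φ ψ := by
  unfold Cfsg.classInner
  congr 1
  exact Equiv.sum_comp σ.toEquiv (fun g => φ g * conj (ψ g))

/-- if a character `ψ` is invariant under a family of automorphisms under which an irreducible
constituent `θ` has pairwise distinct images, then `deg ψ ≥ |family| · deg θ` -/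
theorem orbit_degree_bound {Q : Type*} [Group Q] [Fintype Q] {ψ : Q → ℂ}
    (hψ : Cfsg.IsCharacter Q ψ) (θ : Cfsg.IrrCharacter Q) (hθ : Cfsg.classInner ψ θ ≠ 0)
    {ι : Type*} [Finite ι] (σ : ι → Q ≃* Q) (hσψ : ∀ i, ψ ∘ σ i = ψ)
    (hinj : ∀ i j, (θ : Q → ℂ) ∘ σ i = (θ : Q → ℂ) ∘ σ j → i = j) :
    Nat.card ι * Cfsg.charDegree (θ : Q → ℂ) ≤ Cfsg.charDegree ψ := by
  classical
  haveI : Fintype ι := Fintype.ofFinite ι
  haveI : Finite (Cfsg.IrrCharacter Q) := irr_finite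
  letI : Fintype (Cfsg.IrrCharacter Q) := Fintype.ofFinite _
  have hm : ∀ φ : Cfsg.IrrCharacter Q, ∃ n : ℕ, Cfsg.classInner ψ φ = (n : ℂ) := fun φ =>
    classInner_isCharacter_nat hψ (isCharacter_of_isIrrCharacter φ.2)
  choose mult hmult using hm
  rw [charDegree_eq_sum hψ mult hmult]
  let f : ι → Cfsg.IrrCharacter Q := fun i =>
    ⟨(θ : Q → ℂ) ∘ σ i,
      isIrrCharacter_comp_of_surjective θ.2 (σ i).toMonoidHom (σ i).surjective⟩
  have hf : Function.Injective f := fun i j h => hinj i j (congrArg Subtype.val h)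
  have hmf : ∀ i, mult (f i) = mult θ := by
    intro i
    have h1 : Cfsg.classInner ψ (f i : Q → ℂ) = Cfsg.classInner ψ θ := by
      show Cfsg.classInner ψ ((θ : Q → ℂ) ∘ σ i) = _
      conv_lhs => rw [← hσψ i]
      exact classInner_comp_equiv (σ i) ψ θ
    rw [hmult, hmult] at h1
    exact_mod_cast h1
  have hdf : ∀ i, Cfsg.charDegree (f i : Q → ℂ) = Cfsg.charDegree (θ : Q → ℂ) := by
    intro i
    unfold Cfsg.charDegree
    show ⌊((θ : Q → ℂ) (σ i 1)).re⌋₊ = _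
    rw [map_one]
  have hmθ : 1 ≤ mult θ := by
    rcases Nat.eq_zero_or_pos (mult θ) with h0 | h0
    · exfalso; apply hθ; rw [hmult θ, h0]; simp
    · exact h0
  calc Nat.card ι * Cfsg.charDegree (θ : Q → ℂ)
      ≤ Nat.card ι * (mult θ * Cfsg.charDegree (θ : Q → ℂ)) :=
        Nat.mul_le_mul_left _ (Nat.le_mul_of_pos_left _ hmθ)
    _ = ∑ i : ι, mult (f i) * Cfsg.charDegree (f i : Q → ℂ) := by
        rw [Finset.sum_congr rfl (fun i _ => by rw [hmf i, hdf i]), Finset.sum_const,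
          Finset.card_univ, smul_eq_mul, Nat.card_eq_fintype_card]
    _ = ∑ φ ∈ Finset.univ.image f, mult φ * Cfsg.charDegree (φ : Q → ℂ) := by
        rw [Finset.sum_image (fun a _ b _ h => hf h)]
    _ ≤ ∑ φ : Cfsg.IrrCharacter Q, mult φ * Cfsg.charDegree (φ : Q → ℂ) :=
        Finset.sum_le_sum_of_subset (Finset.subset_univ _)

end Abstract

section QChar

variable {F : Type*} [Field F] [Fintype F] {m : ℕ}

theorem qS_center (hF : Fintype.card F = 2 ^ (2 * m + 1)) (b : F) :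
    qS (m := m) hF 0 b ∈ Subgroup.center (QG (m := m) hF) := by
  rw [Subgroup.mem_center_iff]
  intro g
  obtain ⟨a, c, rfl⟩ := qS_surj hF g
  rw [qS_mul, qS_mul, th_zero]
  congr 1
  · ring
  · ring

/-- the central character of a function on `Q` -/
noncomputable def lamC (hF : Fintype.card F = 2 ^ (2 * m + 1))
    (θ : QG (m := m) hF → ℂ) (b : F) : ℂ := θ (qS hF 0 b) / θ 1

theorem irrQ_one_ne_zero (hF : Fintype.card F = 2 ^ (2 * m + 1))
    (θ : Cfsg.IrrCharacter (QG (m := m) hF)) : (θ : QG (m := m) hF → ℂ) 1 ≠ 0 := by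
  rw [isIrrCharacter_one_eq_charDegree θ.2]
  have := charDegree_pos_of_irr θ.2
  exact_mod_cast this.ne'

theorem lamC_mul (hF : Fintype.card F = 2 ^ (2 * m + 1))
    (θ : Cfsg.IrrCharacter (QG (m := m) hF)) (b : F) (g : QG (m := m) hF) :
    (θ : QG (m := m) hF → ℂ) (g * qS hF 0 b) =
      lamC hF (θ : QG (m := m) hF → ℂ) b * (θ : QG (m := m) hF → ℂ) g := by
  obtain ⟨c, hc⟩ := irr_central_scalar θ (qS hF 0 b) (qS_center hF b)
  have h1 := hc 1
  rw [one_mul] at h1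
  have h0 := irrQ_one_ne_zero hF θ
  have hc' : c = lamC hF (θ : QG (m := m) hF → ℂ) b := by
    unfold lamC
    rw [h1]
    field_simp
  rw [← hc']
  exact hc g

theorem lamC_zero (hF : Fintype.card F = 2 ^ (2 * m + 1))
    (θ : Cfsg.IrrCharacter (QG (m := m) hF)) : lamC hF (θ : QG (m := m) hF → ℂ) 0 = 1 := by
  unfold lamC
  rw [qS_zero]
  exact div_self (irrQ_one_ne_zero hF θ)

theorem lamC_add (hF : Fintype.card F = 2 ^ (2 * m + 1))
    (θ : Cfsg.IrrCharacter (QG (m := m) hF)) (b b' : F) :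
    lamC hF (θ : QG (m := m) hF → ℂ) (b + b') =
      lamC hF (θ : QG (m := m) hF → ℂ) b * lamC hF (θ : QG (m := m) hF → ℂ) b' := by
  have h1 : qS (m := m) hF 0 (b + b') = qS hF 0 b * qS hF 0 b' := by
    rw [qS_mul, th_zero]
    congr 1 <;> ring
  have h2 := lamC_mul hF θ b' (qS hF 0 b)
  rw [← h1] at h2
  show (θ : QG (m := m) hF → ℂ) (qS hF 0 (b + b')) / (θ : QG (m := m) hF → ℂ) 1 = _
  rw [h2]
  unfold lamC
  ring

/-- the kernel of the central character -/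
noncomputable def kerLam (hF : Fintype.card F = 2 ^ (2 * m + 1))
    (θ : Cfsg.IrrCharacter (QG (m := m) hF)) : AddSubgroup F where
  carrier := {b | lamC hF (θ : QG (m := m) hF → ℂ) b = 1}
  zero_mem' := lamC_zero hF θ
  add_mem' := by
    intro b b' hb hb'
    have hb1 : lamC hF (θ : QG (m := m) hF → ℂ) b = 1 := hb
    have hb2 : lamC hF (θ : QG (m := m) hF → ℂ) b' = 1 := hb'
    show lamC hF (θ : QG (m := m) hF → ℂ) (b + b') = 1
    rw [lamC_add, hb1, hb2, one_mul]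
  neg_mem' := by
    intro b hb
    have : -b = b := by
      rw [neg_eq_iff_add_eq_zero]
      exact add_self hF b
    rw [this]
    exact hb

theorem mem_kerLam (hF : Fintype.card F = 2 ^ (2 * m + 1))
    (θ : Cfsg.IrrCharacter (QG (m := m) hF)) (b : F) :
    b ∈ kerLam hF θ ↔ lamC hF (θ : QG (m := m) hF → ℂ) b = 1 := Iff.rfl

theorem irrQ_vanish (hF : Fintype.card F = 2 ^ (2 * m + 1))
    (θ : Cfsg.IrrCharacter (QG (m := m) hF)) {a b : F}
    (h : (θ : QG (m := m) hF → ℂ) (qS hF a b) ≠ 0) (c : F) :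
    th m c * a + th m a * c ∈ kerLam hF θ := by
  classical
  letI : Fintype (QG (m := m) hF) := Fintype.ofFinite _
  have hconj : qS (m := m) hF c 0 * qS hF a b * (qS hF c 0)⁻¹ =
      qS hF a b * qS hF 0 (th m c * a + th m a * c) := by
    rw [mul_inv_eq_iff_eq_mul, qS_mul, qS_mul, qS_mul]
    congr 1
    · ring
    · simp only [add_zero, zero_add, mul_zero]
      linear_combination (-1 : F) * add_self hF (th m a * c)
  have hcf := isClassFunction_irr θ (qS hF a b) (qS hF c 0)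
  rw [hconj, lamC_mul] at hcf
  rw [mem_kerLam]
  exact mul_right_cancel₀ h (hcf.trans (one_mul _).symm)

theorem irrQ_degree_ge (hF : Fintype.card F = 2 ^ (2 * m + 1))
    (θ : Cfsg.IrrCharacter (QG (m := m) hF)) {b₀ : F}
    (hb₀ : (θ : QG (m := m) hF → ℂ) (qS hF 0 b₀) ≠ (θ : QG (m := m) hF → ℂ) 1) :
    2 ^ m ≤ Cfsg.charDegree (θ : QG (m := m) hF → ℂ) := by
  classical
  have h0 := irrQ_one_ne_zero hF θ
  have hb₀K : b₀ ∉ kerLam hF θ := by
    intro h
    rw [mem_kerLam] at h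
    unfold lamC at h
    rw [div_eq_one_iff_eq h0] at h
    exact hb₀ h
  have hsupp : ∃ a₁ : F, ∀ a b : F, (θ : QG (m := m) hF → ℂ) (qS hF a b) ≠ 0 →
      a = 0 ∨ a = a₁ := by
    by_cases hex : ∃ a b : F, a ≠ 0 ∧ (θ : QG (m := m) hF → ℂ) (qS hF a b) ≠ 0
    · obtain ⟨a₁, b₁, ha₁, hθ₁⟩ := hex
      refine ⟨a₁, fun a b hab => ?_⟩
      by_cases ha : a = 0
      · exact Or.inl ha
      · exact Or.inr (rad_unique hF (kerLam hF θ) hb₀K ha ha₁ (irrQ_vanish hF θ hab)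
          (irrQ_vanish hF θ hθ₁))
    · push Not at hex
      refine ⟨0, fun a b hab => ?_⟩
      left
      by_contra ha
      exact hab (hex a b ha)
  obtain ⟨a₁, hsupp⟩ := hsupp
  letI : Fintype (QG (m := m) hF) := Fintype.ofFinite _
  have horth := irr_orthonormal θ.2 θ.2
  rw [if_pos rfl] at horth
  unfold Cfsg.classInner at horth
  have hc : (Nat.card (QG (m := m) hF) : ℂ) ≠ 0 := by
    exact_mod_cast (Nat.card_pos (α := QG (m := m) hF)).ne'
  have h1 := (inv_mul_eq_one₀ hc).mp horth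
  have hsum : ∑ g : QG (m := m) hF, ‖(θ : QG (m := m) hF → ℂ) g‖ ^ 2 =
      (Nat.card (QG (m := m) hF) : ℝ) := by
    have h2 : ((∑ g : QG (m := m) hF, ‖(θ : QG (m := m) hF → ℂ) g‖ ^ 2 : ℝ) : ℂ) =
        (Nat.card (QG (m := m) hF) : ℂ) := by
      rw [h1]
      push_cast
      apply Finset.sum_congr rfl
      intro g _
      rw [Complex.mul_conj']
    exact_mod_cast h2
  have hbij : Function.Bijective (fun p : F × F => qS (m := m) hF p.1 p.2) := by
    constructor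
    · rintro ⟨a, b⟩ ⟨c, d⟩ h
      obtain ⟨h1, h2⟩ := qS_inj hF h
      exact Prod.ext h1 h2
    · intro g
      obtain ⟨a, b, rfl⟩ := qS_surj hF g
      exact ⟨(a, b), rfl⟩
  have hsum2 : ∑ p : F × F, ‖(θ : QG (m := m) hF → ℂ) (qS hF p.1 p.2)‖ ^ 2 =
      (Nat.card (QG (m := m) hF) : ℝ) := by
    rw [← hsum]
    exact Equiv.sum_comp (Equiv.ofBijective _ hbij)
      (fun g => ‖(θ : QG (m := m) hF → ℂ) g‖ ^ 2)
  set d := Cfsg.charDegree (θ : QG (m := m) hF → ℂ) with hd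
  have hterm : ∀ p : F × F, ‖(θ : QG (m := m) hF → ℂ) (qS hF p.1 p.2)‖ ^ 2 ≤
      (if p.1 = 0 then (d : ℝ) ^ 2 else 0) + (if p.1 = a₁ then (d : ℝ) ^ 2 else 0) := by
    intro p
    have hnn : (0 : ℝ) ≤ (if p.1 = 0 then (d : ℝ) ^ 2 else 0) +
        (if p.1 = a₁ then (d : ℝ) ^ 2 else 0) := by
      apply add_nonneg <;> split_ifs <;> positivity
    by_cases hz : (θ : QG (m := m) hF → ℂ) (qS hF p.1 p.2) = 0
    · rw [hz, norm_zero]
      simpa using hnn
    · have hle : ‖(θ : QG (m := m) hF → ℂ) (qS hF p.1 p.2)‖ ^ 2 ≤ (d : ℝ) ^ 2 := by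
        have := norm_irr_le θ (qS hF p.1 p.2)
        rw [norm_irr_one] at this
        exact pow_le_pow_left₀ (norm_nonneg _) this 2
      rcases hsupp p.1 p.2 hz with h | h
      · rw [if_pos h]
        have : (0 : ℝ) ≤ (if p.1 = a₁ then (d : ℝ) ^ 2 else 0) := by split_ifs <;> positivity
        linarith
      · rw [if_pos h]
        have : (0 : ℝ) ≤ (if p.1 = 0 then (d : ℝ) ^ 2 else 0) := by split_ifs <;> positivity
        linarith
  have hS : ∀ a₀ : F, ∑ p : F × F, (if p.1 = a₀ then (d : ℝ) ^ 2 else 0) =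
      (Fintype.card F : ℝ) * (d : ℝ) ^ 2 := by
    intro a₀
    rw [Fintype.sum_prod_type]
    have hin : ∀ x : F, ∑ _y : F, (if x = a₀ then (d : ℝ) ^ 2 else 0) =
        if x = a₀ then (Fintype.card F : ℝ) * (d : ℝ) ^ 2 else 0 := by
      intro x
      rw [Finset.sum_const, Finset.card_univ, nsmul_eq_mul]
      split_ifs <;> simp
    rw [Finset.sum_congr rfl (fun x _ => hin x), Finset.sum_ite_eq']
    simp
  have htot : (Nat.card (QG (m := m) hF) : ℝ) ≤
      (Fintype.card F : ℝ) * (d : ℝ) ^ 2 + (Fintype.card F : ℝ) * (d : ℝ) ^ 2 := by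
    have h := Finset.sum_le_sum (fun p (_ : p ∈ Finset.univ) => hterm p)
    rw [Finset.sum_add_distrib, hS 0, hS a₁, hsum2] at h
    exact h
  rw [card_QG hF, hF] at htot
  have hnat : (2 ^ (2 * m + 1)) ^ 2 ≤ 2 ^ (2 * m + 1) * d ^ 2 + 2 ^ (2 * m + 1) * d ^ 2 := by
    exact_mod_cast htot
  by_contra hlt
  push Not at hlt
  have h3 : d ^ 2 < (2 ^ m) ^ 2 := Nat.pow_lt_pow_left hlt (by norm_num)
  have h4 : (2 ^ (2 * m + 1)) ^ 2 = 2 ^ (2 * m + 1) * (2 ^ m) ^ 2 + 2 ^ (2 * m + 1) * (2 ^ m) ^ 2 := by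
    ring
  have h5 : 2 ^ (2 * m + 1) * d ^ 2 < 2 ^ (2 * m + 1) * (2 ^ m) ^ 2 :=
    Nat.mul_lt_mul_of_pos_left h3 (by positivity)
  omega

end QChar

end Cfsg.Agent.Lib.Helper2.SzL
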