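import Mathlib
import Cfsg.Prelude.Def_LieExceptional
import Cfsg.Prelude.Def_Characters
import Cfsg.Agent.Lib.Helper2.SzR2

set_option autoImplicit false

namespace Cfsg.Agent.Lib.Helper2.SzL

open Cfsg.Agent.Lib.Lead
open scoped ComplexConjugate

section Tor

variable {F : Type*} [Field F] [Fintype F] {m : ℕ}

theorem conj_gT_mem_QG (hF : Fintype.card F = 2 ^ (2 * m + 1)) (t : Fˣ) {x : Cfsg.Sz F m}
    (hx : x ∈ QG (m := m) hF) : gT hF t * x * (gT hF t)⁻¹ ∈ QG (m := m) hF := by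
  obtain ⟨a, b, rfl⟩ := eq_gS_of_mem_QG hF hx
  rw [gT_gS_conj]
  exact gS_mem_QG hF _ _

/-- conjugation by a torus element as an automorphism of `Q` -/
noncomputable def torConj (hF : Fintype.card F = 2 ^ (2 * m + 1)) (t : Fˣ) :
    QG (m := m) hF ≃* QG (m := m) hF where
  toFun x := ⟨gT hF t * x * (gT hF t)⁻¹, conj_gT_mem_QG hF t x.2⟩
  invFun x := ⟨(gT hF t)⁻¹ * x * gT hF t, by
    have := conj_gT_mem_QG hF t⁻¹ x.2
    rwa [← gT_inv, inv_inv] at this⟩
  left_inv x := Subtype.ext (by simp [mul_assoc])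
  right_inv x := Subtype.ext (by simp [mul_assoc])
  map_mul' x y := Subtype.ext (by simp [mul_assoc])

theorem torConj_coe (hF : Fintype.card F = 2 ^ (2 * m + 1)) (t : Fˣ) (x : QG (m := m) hF) :
    ((torConj hF t x : QG (m := m) hF) : Cfsg.Sz F m) = gT hF t * x * (gT hF t)⁻¹ := rfl

theorem torConj_qS (hF : Fintype.card F = 2 ^ (2 * m + 1)) (t : Fˣ) (a b : F) :
    torConj hF t (qS hF a b) = qS hF (th m (t : F) * a) (th m (t : F) * (t : F) ^ 2 * b) :=
  Subtype.ext (gT_gS_conj hF t a b)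

theorem thsq_inj (hF : Fintype.card F = 2 ^ (2 * m + 1)) {t s : F}
    (h : th m t * t ^ 2 = th m s * s ^ 2) : t = s := by
  have h1 := congrArg (th m) h
  rw [th_mul, th_mul, th_th hF, th_th hF, th_pow, th_pow] at h1
  have h2 : (th m t * t) ^ 2 = (th m s * s) ^ 2 := by
    rw [mul_pow, mul_pow]
    linear_combination h1
  exact thmul_inj hF (sq_inj hF h2)

theorem torConj_inj (hF : Fintype.card F = 2 ^ (2 * m + 1))
    (θ : Cfsg.IrrCharacter (QG (m := m) hF)) {b₀ : F}
    (hb₀ : (θ : QG (m := m) hF → ℂ) (qS hF 0 b₀) ≠ (θ : QG (m := m) hF → ℂ) 1)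
    {t s : Fˣ}
    (h : (θ : QG (m := m) hF → ℂ) ∘ torConj hF t = (θ : QG (m := m) hF → ℂ) ∘ torConj hF s) :
    t = s := by
  have h0 := irrQ_one_ne_zero hF θ
  have hb₀K : lamC hF (θ : QG (m := m) hF → ℂ) b₀ ≠ 1 := by
    intro h
    unfold lamC at h
    rw [div_eq_one_iff_eq h0] at h
    exact hb₀ h
  have hlam : ∀ b : F, lamC hF (θ : QG (m := m) hF → ℂ) (th m (t : F) * (t : F) ^ 2 * b) =
      lamC hF (θ : QG (m := m) hF → ℂ) (th m (s : F) * (s : F) ^ 2 * b) := by
    intro b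
    have h1 := congrFun h (qS hF 0 b)
    simp only [Function.comp_apply, torConj_qS, mul_zero] at h1
    unfold lamC
    rw [h1]
  apply Units.ext
  apply thsq_inj hF
  by_contra hne
  apply hb₀K
  have hμ : th m (t : F) * (t : F) ^ 2 + th m (s : F) * (s : F) ^ 2 ≠ 0 := by
    intro h3
    exact hne (eq_of_add_eq_zero hF h3)
  have hb : b₀ = th m (t : F) * (t : F) ^ 2 *
        (b₀ / (th m (t : F) * (t : F) ^ 2 + th m (s : F) * (s : F) ^ 2)) +
      th m (s : F) * (s : F) ^ 2 *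
        (b₀ / (th m (t : F) * (t : F) ^ 2 + th m (s : F) * (s : F) ^ 2)) := by
    field_simp
  rw [hb, lamC_add, hlam, ← lamC_add, add_self hF, lamC_zero]

end Tor

section Main

variable {F : Type*} [Field F] [Fintype F] {m : ℕ}

theorem sz_min_degree (hm : 1 ≤ m) (hF : Fintype.card F = 2 ^ (2 * m + 1)) (k : ℕ)
    (ρ : Representation ℂ (Cfsg.Sz F m) (Fin k → ℂ)) (hρ : ρ.IsIrreducible) (hk : 2 ≤ k) :
    2 ^ m * (2 ^ (2 * m + 1) - 1) ≤ k := by
  classical
  haveI := hρ
  letI : Fintype (Cfsg.Sz F m) := Fintype.ofFinite _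
  letI : Fintype (QG (m := m) hF) := Fintype.ofFinite _
  have hχirr : Cfsg.IsIrrCharacter (Cfsg.Sz F m) ρ.character := ⟨k, ρ, hρ, rfl⟩
  have hχ1 : ρ.character 1 = (k : ℂ) := by
    rw [Representation.char_one]; simp
  have hz : ρ.character (gS hF 0 1) ≠ (k : ℂ) := by
    intro h
    have h1 : ρ (gS hF 0 1) = LinearMap.id :=
      (char_eq_finrank_iff ρ _).mp (by rw [h]; simp)
    let N : Subgroup (Cfsg.Sz F m) :=
      { carrier := {g | ρ g = 1}
        one_mem' := map_one ρ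
        mul_mem' := by
          intro a b ha hb
          have ha' : ρ a = 1 := ha
          have hb' : ρ b = 1 := hb
          show ρ (a * b) = 1
          rw [map_mul, ha', hb', one_mul]
        inv_mem' := by
          intro a ha
          have ha' : ρ a = 1 := ha
          show ρ a⁻¹ = 1
          have h2 : ρ a⁻¹ * ρ a = 1 := by rw [← map_mul, inv_mul_cancel, map_one]
          rwa [ha', mul_one] at h2 }
    have hNn : N.Normal := by
      refine ⟨fun n hn g => ?_⟩
      have hn' : ρ n = 1 := hn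
      show ρ (g * n * g⁻¹) = 1
      rw [map_mul, map_mul, hn', mul_one, ← map_mul, mul_inv_cancel, map_one]
    haveI := isSimple (F := F) hm hF
    have hNtop : N = ⊤ := by
      refine (IsSimpleGroup.eq_bot_or_eq_top_of_normal N hNn).resolve_left ?_
      intro hbot
      have hmem : gS hF 0 1 ∈ N := h1
      rw [hbot, Subgroup.mem_bot, ← gS_zero hF] at hmem
      exact one_ne_zero (gS_inj hF hmem).2
    have hall : ∀ g : Cfsg.Sz F m, ρ.character g = (k : ℂ) := by
      intro g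
      have hg : g ∈ N := by rw [hNtop]; exact Subgroup.mem_top g
      have hg' : ρ g = 1 := hg
      show LinearMap.trace ℂ _ (ρ g) = _
      rw [hg']
      simp
    have horth := irr_orthonormal hχirr hχirr
    rw [if_pos rfl] at horth
    unfold Cfsg.classInner at horth
    simp only [hall, Finset.sum_const, Finset.card_univ, nsmul_eq_mul, Complex.conj_natCast,
      ← Nat.card_eq_fintype_card] at horth
    have hc : (Nat.card (Cfsg.Sz F m) : ℂ) ≠ 0 := by
      exact_mod_cast (Nat.card_pos (α := Cfsg.Sz F m)).ne'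
    rw [inv_mul_cancel_left₀ hc] at horth
    have hk1 : k * k = 1 := by exact_mod_cast horth
    have : k = 1 := Nat.eq_one_of_mul_eq_one_left hk1
    omega
  set ψ : QG (m := m) hF → ℂ := fun x => ρ.character x with hψdef
  have hψ : Cfsg.IsCharacter (QG (m := m) hF) ψ :=
    isCharacter_res _ (isCharacter_of_isIrrCharacter hχirr)
  have hψ1 : ψ 1 = (k : ℂ) := hχ1
  have hψz : ψ (qS hF 0 1) ≠ (k : ℂ) := hz
  haveI : Finite (Cfsg.IrrCharacter (QG (m := m) hF)) := irr_finite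
  letI : Fintype (Cfsg.IrrCharacter (QG (m := m) hF)) := Fintype.ofFinite _
  have hexp := expansion ψ (isClassFunction_of_isCharacter hψ)
  have hθ : ∃ θ : Cfsg.IrrCharacter (QG (m := m) hF), Cfsg.classInner ψ θ ≠ 0 ∧
      (θ : QG (m := m) hF → ℂ) (qS hF 0 1) ≠ (θ : QG (m := m) hF → ℂ) 1 := by
    by_contra hcon
    push Not at hcon
    apply hψz
    rw [← hψ1]
    have e1 := congrFun hexp (qS hF 0 1)
    have e2 := congrFun hexp 1
    refine e1.trans (Eq.trans ?_ e2.symm)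
    simp only [Finset.sum_apply, Pi.smul_apply, smul_eq_mul]
    apply Finset.sum_congr rfl
    intro θ _
    by_cases h0 : Cfsg.classInner ψ θ = 0
    · rw [h0, zero_mul, zero_mul]
    · rw [hcon θ h0]
  obtain ⟨θ, hθ0, hθz⟩ := hθ
  have hinv : ∀ t : Fˣ, ψ ∘ torConj hF t = ψ := by
    intro t
    funext x
    show ρ.character (gT hF t * x * (gT hF t)⁻¹) = ρ.character x
    exact isClassFunction_irr ⟨ρ.character, hχirr⟩ _ _
  have hbound := orbit_degree_bound hψ θ hθ0 (fun t : Fˣ => torConj hF t) hinv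
    (fun t s h => torConj_inj hF θ hθz h)
  have hdeg := irrQ_degree_ge hF θ hθz
  have hψdeg : Cfsg.charDegree ψ = k := charDegree_of_one_eq hψ1
  have hcard : Nat.card Fˣ = 2 ^ (2 * m + 1) - 1 := by
    rw [Nat.card_units, Nat.card_eq_fintype_card, hF]
  rw [hψdeg, hcard] at hbound
  calc 2 ^ m * (2 ^ (2 * m + 1) - 1) = (2 ^ (2 * m + 1) - 1) * 2 ^ m := mul_comm _ _
    _ ≤ (2 ^ (2 * m + 1) - 1) * Cfsg.charDegree (θ : QG (m := m) hF → ℂ) :=
        Nat.mul_le_mul_left _ hdeg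
    _ ≤ k := hbound

theorem lie_sz_min_degree (hm : 1 ≤ m) (hF : Fintype.card F = 2 ^ (2 * m + 1)) (k : ℕ)
    (ρ : Representation ℂ (Cfsg.Lie.Sz F (2 ^ (m + 1))) (Fin k → ℂ)) (hρ : ρ.IsIrreducible)
    (hk : 2 ≤ k) : 2 ^ m * (2 ^ (2 * m + 1) - 1) ≤ k := by
  have h := (isIrreducible_comp_iff_of_surjective ρ (lieSzEquiv hm hF).symm.toMonoidHom
    (lieSzEquiv hm hF).symm.surjective).mpr hρ
  exact sz_min_degree hm hF k _ h hk

end Main

end Cfsg.Agent.Lib.Helper2.SzL
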