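import Mathlib
import Cfsg.Prelude.Def_LieExceptional
import Cfsg.Agent.Lib.Helper2.Sz24

set_option autoImplicit false

namespace Cfsg.Agent.Lib.Helper2.SzL

open Matrix
open scoped LinearAlgebra.Projectivization Pointwise commutatorElement IsMulCommutative

section SubMap

variable {F : Type*} [Field F] [Fintype F] {m : ℕ} {K : Type*} [Field K] [Fintype K] {k : ℕ}

theorem exists_j (hdiv : 2 * k + 1 ∣ 2 * m + 1) :
    ∃ j : ℕ, m + 1 = (2 * k + 1) * j + (k + 1) := by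
  obtain ⟨d, hd⟩ := hdiv
  rcases Nat.even_or_odd' d with ⟨e, rfl | rfl⟩
  · exfalso
    have h : (2 * k + 1) * (2 * e) = 2 * ((2 * k + 1) * e) := by ring
    rw [h] at hd
    omega
  · have h : (2 * k + 1) * (2 * e + 1) = 2 * ((2 * k + 1) * e) + (2 * k + 1) := by ring
    rw [h] at hd
    exact ⟨e, by omega⟩

theorem tits_compat (hK : Fintype.card K = 2 ^ (2 * k + 1)) (j : ℕ)
    (hj : m + 1 = (2 * k + 1) * j + (k + 1)) (φ : K →+* F) (x : K) :
    th m (φ x) = φ (th k x) := by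
  unfold th
  rw [← map_pow, hj, pow_add, pow_mul, pow_mul, ← hK, FiniteField.pow_card_pow]

theorem fS_compat (hK : Fintype.card K = 2 ^ (2 * k + 1)) (j : ℕ)
    (hj : m + 1 = (2 * k + 1) * j + (k + 1)) (φ : K →+* F) (x y : K) :
    fS m (φ x) (φ y) = φ (fS k x y) := by
  rw [fS_eq, fS_eq, tits_compat hK j hj, tits_compat hK j hj]
  simp only [map_add, map_mul, map_pow]

theorem smap_sS (hK : Fintype.card K = 2 ^ (2 * k + 1)) (j : ℕ)
    (hj : m + 1 = (2 * k + 1) * j + (k + 1)) (φ : K →+* F) (a b : K) :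
    Matrix.SpecialLinearGroup.map φ (sS k a b) = sS m (φ a) (φ b) := by
  apply Subtype.ext
  show φ.mapMatrix (mS k a b) = mS m (φ a) (φ b)
  ext i j'
  rw [RingHom.mapMatrix_apply, Matrix.map_apply]
  fin_cases i <;> fin_cases j' <;>
    simp [mS, tits_compat hK j hj, fS_compat hK j hj]

theorem smap_sT (hK : Fintype.card K = 2 ^ (2 * k + 1)) (j : ℕ)
    (hj : m + 1 = (2 * k + 1) * j + (k + 1)) (φ : K →+* F) (t : Kˣ) :
    Matrix.SpecialLinearGroup.map φ (sT k t) = sT m (Units.map (φ : K →* F) t) := by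
  apply Subtype.ext
  show φ.mapMatrix (mT k (t : K)) = mT m ((Units.map (φ : K →* F) t : Fˣ) : F)
  ext i j'
  rw [RingHom.mapMatrix_apply, Matrix.map_apply]
  fin_cases i <;> fin_cases j' <;>
    simp [mT, tits_compat hK j hj]

theorem smap_sW (hK : Fintype.card K = 2 ^ (2 * k + 1)) (hF : Fintype.card F = 2 ^ (2 * m + 1))
    (φ : K →+* F) :
    Matrix.SpecialLinearGroup.map φ (sW hK) = sW hF := by
  apply Subtype.ext
  show φ.mapMatrix (mW K) = mW F
  ext i j'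
  rw [RingHom.mapMatrix_apply, Matrix.map_apply]
  fin_cases i <;> fin_cases j' <;>
    simp [mW]

theorem smap_mem (hk : 1 ≤ k) (hK : Fintype.card K = 2 ^ (2 * k + 1))
    (hF : Fintype.card F = 2 ^ (2 * m + 1)) (j : ℕ)
    (hj : m + 1 = (2 * k + 1) * j + (k + 1)) (φ : K →+* F)
    (g : SpecialLinearGroup (Fin 4) K) (hg : g ∈ Cfsg.Sz K k) :
    Matrix.SpecialLinearGroup.map φ g ∈ Cfsg.Sz F m := by
  rcases decomp hk hK g hg with ⟨a, b, t, rfl⟩ | ⟨a, b, a', b', t, rfl⟩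
  · rw [map_mul, smap_sS hK j hj, smap_sT hK j hj]
    exact Subgroup.mul_mem _ (sS_mem hF _ _) (sT_mem hF _)
  · rw [map_mul, map_mul, map_mul, smap_sS hK j hj, smap_sS hK j hj, smap_sT hK j hj,
      smap_sW hK hF]
    exact Subgroup.mul_mem _ (Subgroup.mul_mem _ (sS_mem hF _ _) (sW_mem hF))
      (Subgroup.mul_mem _ (sS_mem hF _ _) (sT_mem hF _))

/-- the embedding of Suzuki groups induced by a field embedding -/
def szMap (hk : 1 ≤ k) (hK : Fintype.card K = 2 ^ (2 * k + 1))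
    (hF : Fintype.card F = 2 ^ (2 * m + 1)) (j : ℕ)
    (hj : m + 1 = (2 * k + 1) * j + (k + 1)) (φ : K →+* F) : Cfsg.Sz K k →* Cfsg.Sz F m where
  toFun g := ⟨Matrix.SpecialLinearGroup.map φ g.1, smap_mem hk hK hF j hj φ g.1 g.2⟩
  map_one' := Subtype.ext (map_one _)
  map_mul' g h := Subtype.ext (map_mul _ g.1 h.1)

theorem szMap_coe (hk : 1 ≤ k) (hK : Fintype.card K = 2 ^ (2 * k + 1))
    (hF : Fintype.card F = 2 ^ (2 * m + 1)) (j : ℕ)
    (hj : m + 1 = (2 * k + 1) * j + (k + 1)) (φ : K →+* F) (g : Cfsg.Sz K k) :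
    ((szMap hk hK hF j hj φ g : Cfsg.Sz F m) : SpecialLinearGroup (Fin 4) F) =
      Matrix.SpecialLinearGroup.map φ g.1 := rfl

theorem szMap_injective (hk : 1 ≤ k) (hK : Fintype.card K = 2 ^ (2 * k + 1))
    (hF : Fintype.card F = 2 ^ (2 * m + 1)) (j : ℕ)
    (hj : m + 1 = (2 * k + 1) * j + (k + 1)) (φ : K →+* F) :
    Function.Injective (szMap hk hK hF j hj φ) := by
  intro g h hgh
  apply Subtype.ext
  apply Subtype.ext
  ext i j'
  have h1 := congrArg (fun x : Cfsg.Sz F m => (x.1 : SpecialLinearGroup (Fin 4) F).1 i j') hgh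
  simp only [szMap_coe] at h1
  have h2 : φ (g.1.1 i j') = φ (h.1.1 i j') := h1
  exact φ.injective h2

theorem szMap_gS (hk : 1 ≤ k) (hK : Fintype.card K = 2 ^ (2 * k + 1))
    (hF : Fintype.card F = 2 ^ (2 * m + 1)) (j : ℕ)
    (hj : m + 1 = (2 * k + 1) * j + (k + 1)) (φ : K →+* F) (a b : K) :
    szMap hk hK hF j hj φ (gS hK a b) = gS hF (φ a) (φ b) :=
  Subtype.ext (smap_sS hK j hj φ a b)

theorem szMap_gT (hk : 1 ≤ k) (hK : Fintype.card K = 2 ^ (2 * k + 1))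
    (hF : Fintype.card F = 2 ^ (2 * m + 1)) (j : ℕ)
    (hj : m + 1 = (2 * k + 1) * j + (k + 1)) (φ : K →+* F) (t : Kˣ) :
    szMap hk hK hF j hj φ (gT hK t) = gT hF (Units.map (φ : K →* F) t) :=
  Subtype.ext (smap_sT hK j hj φ t)

theorem szMap_gW (hk : 1 ≤ k) (hK : Fintype.card K = 2 ^ (2 * k + 1))
    (hF : Fintype.card F = 2 ^ (2 * m + 1)) (j : ℕ)
    (hj : m + 1 = (2 * k + 1) * j + (k + 1)) (φ : K →+* F) :
    szMap hk hK hF j hj φ (gW hK) = gW hF :=
  Subtype.ext (smap_sW hK hF φ)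

end SubMap

end Cfsg.Agent.Lib.Helper2.SzL
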