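import Mathlib
import Cfsg.Prelude.Def_LieExceptional
import Cfsg.Agent.Lib.Helper2.SzSub1

set_option autoImplicit false

namespace Cfsg.Agent.Lib.Helper2.SzL

open Matrix
open scoped LinearAlgebra.Projectivization Pointwise commutatorElement IsMulCommutative

section HomNorm

variable {F : Type*} [Field F] [Fintype F] {m : ℕ} {K : Type*} [Field K] [Fintype K] {k : ℕ}

/-- conjugate of a homomorphism by an element of the target -/
def conjHom (g : Cfsg.Sz F m) (ι : Cfsg.Sz K k →* Cfsg.Sz F m) : Cfsg.Sz K k →* Cfsg.Sz F m :=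
  (MulAut.conj g).toMonoidHom.comp ι

theorem conjHom_apply (g : Cfsg.Sz F m) (ι : Cfsg.Sz K k →* Cfsg.Sz F m) (x : Cfsg.Sz K k) :
    conjHom g ι x = g * ι x * g⁻¹ := rfl

theorem conjHom_injective (g : Cfsg.Sz F m) (ι : Cfsg.Sz K k →* Cfsg.Sz F m)
    (h : Function.Injective ι) : Function.Injective (conjHom g ι) := by
  intro x y hxy
  rw [conjHom_apply, conjHom_apply] at hxy
  exact h (mul_left_cancel (mul_right_cancel hxy))

theorem hnorm_Q (hk : 1 ≤ k) (hK : Fintype.card K = 2 ^ (2 * k + 1)) (hm : 1 ≤ m)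
    (hF : Fintype.card F = 2 ^ (2 * m + 1)) (ι : Cfsg.Sz K k →* Cfsg.Sz F m) :
    ∃ g₁ : Cfsg.Sz F m, ∀ a b : K, ∃ a' b' : F,
      conjHom g₁ ι (gS hK a b) = gS hF a' b' := by
  haveI : Fact (Nat.Prime 2) := ⟨Nat.prime_two⟩
  have hp : IsPGroup 2 (((QSyl hk hK : Sylow 2 (Cfsg.Sz K k)) : Subgroup (Cfsg.Sz K k)).map ι) :=
    ((QSyl hk hK).isPGroup').map ι
  obtain ⟨P, hP⟩ := hp.exists_le_sylow
  obtain ⟨g, hg⟩ := MulAction.exists_smul_eq (Cfsg.Sz F m) (QSyl hm hF) P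
  refine ⟨g⁻¹, ?_⟩
  intro a b
  have h1 : ι (gS hK a b) ∈ (P : Subgroup (Cfsg.Sz F m)) :=
    hP (Subgroup.mem_map_of_mem _ (gS_mem_QG hK a b))
  have h2 := (conj_mem_of_smul (QSyl hm hF) P g hg _).mp h1
  rw [QSyl_coe] at h2
  obtain ⟨a', b', h3⟩ := eq_gS_of_mem_QG hF h2
  exact ⟨a', b', by rw [conjHom_apply, inv_inv]; exact h3⟩

theorem hmap_BInf (hk : 1 ≤ k) (hK : Fintype.card K = 2 ^ (2 * k + 1))
    (hF : Fintype.card F = 2 ^ (2 * m + 1)) (ι : Cfsg.Sz K k →* Cfsg.Sz F m)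
    (hinj : Function.Injective ι)
    (hQ : ∀ a b : K, ∃ a' b' : F, ι (gS hK a b) = gS hF a' b')
    (β : Cfsg.Sz K k) (hβ : β ∈ BInf K k) : ι β ∈ BInf F m := by
  obtain ⟨c, d, e1⟩ := eq_gS_of_mem_QG hK (conj_mem_QG hk hK β hβ (gS hK 1 0) (gS_mem_QG hK 1 0))
  obtain ⟨a', b', h1⟩ := hQ 1 0
  obtain ⟨c', d', h2⟩ := hQ c d
  have e2 : ι β * gS hF a' b' * (ι β)⁻¹ = gS hF c' d' := by
    rw [← h1, ← h2, ← e1, map_mul, map_mul, map_inv]
  have hab : ¬ (a' = 0 ∧ b' = 0) := by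
    rintro ⟨rfl, rfl⟩
    rw [gS_zero] at h1
    have h3 : gS hK (1 : K) 0 = 1 := hinj (h1.trans (map_one ι).symm)
    have h4 := (gS_inj hK (h3.trans (gS_zero hK).symm)).1
    exact one_ne_zero h4
  rw [mem_BInf]
  exact conj_sS_fix_inf hF hab (ι β).1 (ι β).2 (congrArg Subtype.val e2)

theorem hnorm_T (hk : 1 ≤ k) (hK : Fintype.card K = 2 ^ (2 * k + 1)) (hm : 1 ≤ m)
    (hF : Fintype.card F = 2 ^ (2 * m + 1)) (ι : Cfsg.Sz K k →* Cfsg.Sz F m)
    (hinj : Function.Injective ι)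
    (hQ : ∀ a b : K, ∃ a' b' : F, ι (gS hK a b) = gS hF a' b') :
    ∃ s : Cfsg.Sz F m, (∀ a b : K, ∃ a' b' : F, conjHom s ι (gS hK a b) = gS hF a' b') ∧
      (∀ t : Kˣ, ∃ t' : Fˣ, conjHom s ι (gT hK t) = gT hF t') := by
  have h2 := two_eq_zero hF
  obtain ⟨t₀, ht₀⟩ := exists_torus_ne_one (F := K) hk hK
  have hx : ι (gT hK t₀) ∈ BInf F m := hmap_BInf hk hK hF ι hinj hQ _ (gT_mem_BInf hK t₀)
  have hxinf := (mem_BInf _).mp hx
  obtain ⟨e, f, t', hx'⟩ := fix_inf hm hF (ι (gT hK t₀)).1 (ι (gT hK t₀)).2 hxinf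
  have hx1 : ι (gT hK t₀) ≠ 1 := by
    intro h
    have h3 : gT hK t₀ = 1 := hinj (h.trans (map_one ι).symm)
    exact ht₀ (gT_inj hK (h3.trans (gT_one hK).symm))
  have ht' : t' ≠ 1 := by
    rintro rfl
    rw [sT_one, mul_one] at hx'
    have h3 : ι (gT hK t₀) = gS hF e f := Subtype.ext hx'
    have h4 : ι (gT hK t₀ ^ 4) = 1 := by
      rw [map_pow, h3]
      have : gS hF e f ^ 4 = (gS hF e f * gS hF e f) * (gS hF e f * gS hF e f) := by
        rw [← pow_two, ← pow_two, ← pow_mul]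
      rw [this, gS_sq, gS_sq, th_zero, zero_mul, gS_zero]
    have h5 : gT hK t₀ ^ 4 = 1 := hinj (h4.trans (map_one ι).symm)
    rw [gT_eq_torusHom, ← map_pow] at h5
    have h6 : t₀ ^ 4 = 1 := torusHom_injective hK (h5.trans (map_one _).symm)
    have h7 : t₀ ^ 2 = 1 := unit_sq_eq_one hK (by rw [← pow_add]; exact h6)
    exact ht₀ (unit_sq_eq_one hK (by rw [← pow_two]; exact h7))
  have hD : 1 + th m (t' : F) ≠ 0 := by
    intro h
    have h3 : (1 : F) = th m (t' : F) := eq_of_add_eq_zero hF h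
    have h4 : (t' : F) = 1 := th_inj hF (by rw [← h3, th_one])
    exact ht' (Units.ext h4)
  have hKK : 1 + th m (t' : F) * (t' : F) ^ 2 ≠ 0 := by
    intro h
    have h3 : (1 : F) = th m (t' : F) * (t' : F) ^ 2 := eq_of_add_eq_zero hF h
    have h4 : (t' : F) = 1 := kappa_inj hF (by rw [← h3, th_one]; ring)
    exact ht' (Units.ext h4)
  set a₁ : F := e / (1 + th m (t' : F)) with ha₁
  have ha₁' : a₁ * (1 + th m (t' : F)) = e := div_mul_cancel₀ e hD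
  set b₁ : F := (th m e * (th m (t' : F) * a₁) + f) / (1 + th m (t' : F) * (t' : F) ^ 2) with hb₁
  have hb₁' : b₁ * (1 + th m (t' : F) * (t' : F) ^ 2) = th m e * (th m (t' : F) * a₁) + f :=
    div_mul_cancel₀ _ hKK
  have hfix : (ι (gT hK t₀)).1 • pt m a₁ b₁ = pt m a₁ b₁ := by
    rw [hx', mul_smul, sT_smul_pt hF, sS_smul_pt hF]
    congr 1
    · linear_combination (-1 : F) * ha₁' + (a₁ * th m (t' : F)) * h2
    · linear_combination (-1 : F) * hb₁' + (b₁ * (th m (t' : F) * (t' : F) ^ 2)) * h2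
  have hall : ∀ t : Kˣ, (ι (gT hK t)).1 • pt m a₁ b₁ = pt m a₁ b₁ := by
    intro t
    by_contra hne
    have hy : ι (gT hK t) ∈ BInf F m := hmap_BInf hk hK hF ι hinj hQ _ (gT_mem_BInf hK t)
    have hyinf := (mem_BInf _).mp hy
    have hcomm : ι (gT hK t₀) * ι (gT hK t) = ι (gT hK t) * ι (gT hK t₀) := by
      rw [← map_mul, ← map_mul, ← gT_mul, ← gT_mul, mul_comm]
    have hfix2 : (ι (gT hK t₀)).1 • ((ι (gT hK t)).1 • pt m a₁ b₁) =
        (ι (gT hK t)).1 • pt m a₁ b₁ := by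
      rw [← mul_smul, ← Subgroup.coe_mul, hcomm, Subgroup.coe_mul, mul_smul, hfix]
    have h3 := eq_one_of_fix_three hm hF (ι (gT hK t₀)).1 (ι (gT hK t₀)).2 (pInf F)
      (pt m a₁ b₁) ((ι (gT hK t)).1 • pt m a₁ b₁) pInf_mem (pt_mem _ _)
      (smul_mem_ovoid (ι (gT hK t)).2 (pt_mem _ _)) (pt_ne_inf _ _).symm
      (by
        intro h
        rw [← hyinf] at h
        exact pt_ne_inf (m := m) a₁ b₁ (smul_left_cancel _ h).symm)
      (fun h => hne h.symm) hxinf hfix hfix2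
    exact hx1 (Subtype.ext h3)
  obtain ⟨s, hsQ, hs⟩ := exists_translate (m := m) hF a₁ b₁ 0 0
  have hsinf : (s : SpecialLinearGroup (Fin 4) F) • pInf F = pInf F :=
    (mem_BInf s).mp (QG_le_BInf hF hsQ)
  refine ⟨s, ?_, ?_⟩
  · intro a b
    obtain ⟨a', b', h⟩ := hQ a b
    have hmem : s * gS hF a' b' * s⁻¹ ∈ QG (m := m) hF :=
      (QG hF).mul_mem ((QG hF).mul_mem hsQ (gS_mem_QG hF a' b')) ((QG hF).inv_mem hsQ)
    obtain ⟨a'', b'', h''⟩ := eq_gS_of_mem_QG hF hmem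
    exact ⟨a'', b'', by rw [conjHom_apply, h, h'']⟩
  · intro t
    have hy : ι (gT hK t) ∈ BInf F m := hmap_BInf hk hK hF ι hinj hQ _ (gT_mem_BInf hK t)
    have hyinf := (mem_BInf _).mp hy
    have hinf : ((s * ι (gT hK t) * s⁻¹ : Cfsg.Sz F m) : SpecialLinearGroup (Fin 4) F) • pInf F =
        pInf F := by
      rw [Subgroup.coe_mul, Subgroup.coe_mul, Subgroup.coe_inv, mul_smul, mul_smul,
        inv_smul_eq_iff.mpr hsinf.symm, hyinf, hsinf]
    have h0 : ((s * ι (gT hK t) * s⁻¹ : Cfsg.Sz F m) : SpecialLinearGroup (Fin 4) F) •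
        pt m (0 : F) 0 = pt m (0 : F) 0 := by
      rw [Subgroup.coe_mul, Subgroup.coe_mul, Subgroup.coe_inv, mul_smul, mul_smul,
        inv_smul_eq_iff.mpr hs.symm, hall t, hs]
    obtain ⟨t'', ht''⟩ := fix_two hm hF _ (s * ι (gT hK t) * s⁻¹).2 hinf h0
    exact ⟨t'', by rw [conjHom_apply]; exact Subtype.ext ht''⟩

end HomNorm

end Cfsg.Agent.Lib.Helper2.SzL
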