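import Mathlib
import Cfsg.Prelude.Def_LieExceptional
import Cfsg.Agent.Lib.Helper2.SzSub2

set_option autoImplicit false

namespace Cfsg.Agent.Lib.Helper2.SzL

open Matrix
open scoped LinearAlgebra.Projectivization Pointwise commutatorElement IsMulCommutative

section HomSigma

variable {F : Type*} [Field F] [Fintype F] {m : ℕ} {K : Type*} [Field K] [Fintype K] {k : ℕ}

theorem hexists_sigma (hK : Fintype.card K = 2 ^ (2 * k + 1))
    (hF : Fintype.card F = 2 ^ (2 * m + 1)) (j : ℕ) (hj : m + 1 = (2 * k + 1) * j + (k + 1))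
    (ι : Cfsg.Sz K k →* Cfsg.Sz F m) (hinj : Function.Injective ι)
    (hQ : ∀ a b : K, ∃ a' b' : F, ι (gS hK a b) = gS hF a' b')
    (hT : ∀ t : Kˣ, ∃ t' : Fˣ, ι (gT hK t) = gT hF t') :
    ∃ (φ : K →+* F) (c : F), c ≠ 0 ∧ (∀ b : K, ι (gS hK 0 b) = gS hF 0 (c * φ b)) ∧
      (∀ t : Kˣ, ι (gT hK t) = gT hF (Units.map (φ : K →* F) t)) := by
  have hZ0 : ∀ b : K, ∃ b' : F, ι (gS hK 0 b) = gS hF 0 b' := by
    intro b
    obtain ⟨a', b', h⟩ := hQ 0 b
    have h1 : ι (gS hK 0 b * gS hK 0 b) = 1 := by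
      rw [gS_sq, th_zero, zero_mul, gS_zero, map_one]
    rw [map_mul, h, gS_sq, ← gS_zero hF] at h1
    have h3 := (gS_inj hF h1).2
    have h4 : a' = 0 := thmul_inj hF (by rw [h3, th_zero, zero_mul])
    exact ⟨b', by rw [h, h4]⟩
  choose lam hlam using hZ0
  choose tau htau using hT
  have hadd : ∀ b d : K, lam (b + d) = lam b + lam d := by
    intro b d
    have h1 : ι (gS hK 0 b * gS hK 0 d) = gS hF 0 (lam b) * gS hF 0 (lam d) := by
      rw [map_mul, hlam, hlam]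
    rw [gS0_mul, gS0_mul, hlam] at h1
    exact (gS_inj hF h1).2
  have hinj' : ∀ b d : K, lam b = lam d → b = d := by
    intro b d h
    have h1 : ι (gS hK 0 b) = ι (gS hK 0 d) := by rw [hlam, hlam, h]
    exact (gS_inj hK (hinj h1)).2
  have hlam0 : lam 0 = 0 := by
    have := hadd 0 0
    rw [add_zero] at this
    linear_combination -this
  have hc : lam 1 ≠ 0 := by
    intro h
    exact one_ne_zero (hinj' 1 0 (h.trans hlam0.symm))
  have hrel : ∀ (t : Kˣ) (b : K), lam (th k (t : K) * (t : K) ^ 2 * b) =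
      th m (tau t : F) * (tau t : F) ^ 2 * lam b := by
    intro t b
    have h1 : ι (gT hK t * gS hK 0 b * (gT hK t)⁻¹) =
        gT hF (tau t) * gS hF 0 (lam b) * (gT hF (tau t))⁻¹ := by
      rw [map_mul, map_mul, map_inv, htau, hlam]
    rw [gT_gS_conj, gT_gS_conj, mul_zero, mul_zero, hlam] at h1
    exact (gS_inj hF h1).2
  have hkap : ∀ t : Kˣ, lam (th k (t : K) * (t : K) ^ 2) =
      th m (tau t : F) * (tau t : F) ^ 2 * lam 1 := by
    intro t
    have := hrel t 1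
    rwa [mul_one] at this
  have hmul : ∀ x b : K, lam (x * b) / lam 1 = lam x / lam 1 * (lam b / lam 1) := by
    intro x b
    by_cases hx : x = 0
    · rw [hx, zero_mul, hlam0, zero_div, zero_mul]
    · obtain ⟨t, ht⟩ := lam_surj (m := k) hK (Units.mk0 x hx)
      rw [Units.val_mk0] at ht
      rw [← ht, hrel, hkap]
      field_simp
  let σ₀ : K →+* F :=
    { toFun := fun x => lam x / lam 1
      map_one' := div_self hc
      map_mul' := hmul
      map_zero' := by rw [hlam0, zero_div]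
      map_add' := by intro x y; rw [hadd, add_div] }
  refine ⟨σ₀, lam 1, hc, ?_, ?_⟩
  · intro b
    rw [hlam]
    congr 1
    show lam b = lam 1 * (lam b / lam 1)
    field_simp
  · intro t
    rw [htau]
    congr 1
    apply Units.ext
    apply kappa_inj (m := m) hF
    show th m (tau t : F) * (tau t : F) ^ 2 = th m (σ₀ (t : K)) * (σ₀ (t : K)) ^ 2
    rw [tits_compat hK j hj, ← map_pow, ← map_mul]
    show _ = lam (th k (t : K) * (t : K) ^ 2) / lam 1
    rw [hkap]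
    field_simp

end HomSigma

section HomRigid

variable {F : Type*} [Field F] [Fintype F] {m : ℕ} {K : Type*} [Field K] [Fintype K] {k : ℕ}

theorem hrigid_first (hK : Fintype.card K = 2 ^ (2 * k + 1))
    (hF : Fintype.card F = 2 ^ (2 * m + 1)) (j : ℕ) (hj : m + 1 = (2 * k + 1) * j + (k + 1))
    (ι : Cfsg.Sz K k →* Cfsg.Sz F m) (φ : K →+* F)
    (hQ : ∀ a b : K, ∃ a' b' : F, ι (gS hK a b) = gS hF a' b')
    (hZ : ∀ b : K, ι (gS hK 0 b) = gS hF 0 (φ b)) (a b : K) :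
    ∃ b' : F, ι (gS hK a b) = gS hF (φ a) b' := by
  obtain ⟨a', b', h⟩ := hQ a b
  have h1 : ι (gS hK a b * gS hK a b) = gS hF 0 (φ (th k a * a)) := by rw [gS_sq, hZ]
  rw [map_mul, h, gS_sq] at h1
  have h2 := (gS_inj hF h1).2
  rw [map_mul, ← tits_compat hK j hj] at h2
  have h3 : a' = φ a := thmul_inj hF h2
  exact ⟨b', by rw [h, h3]⟩

theorem hrigid_Q (hk : 1 ≤ k) (hK : Fintype.card K = 2 ^ (2 * k + 1))
    (hF : Fintype.card F = 2 ^ (2 * m + 1)) (j : ℕ) (hj : m + 1 = (2 * k + 1) * j + (k + 1))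
    (ι : Cfsg.Sz K k →* Cfsg.Sz F m) (φ : K →+* F)
    (hQ : ∀ a b : K, ∃ a' b' : F, ι (gS hK a b) = gS hF a' b')
    (hZ : ∀ b : K, ι (gS hK 0 b) = gS hF 0 (φ b))
    (hT : ∀ t : Kˣ, ι (gT hK t) = gT hF (Units.map (φ : K →* F) t)) (a b : K) :
    ι (gS hK a b) = gS hF (φ a) (φ b) := by
  have h2 := two_eq_zero hF
  choose e he using fun a => hrigid_first hK hF j hj ι φ hQ hZ a 0
  have h3 : ∀ a b : K, ι (gS hK a b) = gS hF (φ a) (e a + φ b) := by
    intro a b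
    rw [gS_split hK a b, map_mul, he, hZ, gS_mul]
    congr 1
    · rw [add_zero]
    · rw [mul_zero, add_zero]
  have hadd : ∀ a c : K, e (a + c) = e a + e c := by
    intro a c
    have h4 : ι (gS hK a 0 * gS hK c 0) = gS hF (φ a) (e a) * gS hF (φ c) (e c) := by
      rw [map_mul, he, he]
    rw [gS_mul, gS_mul, h3] at h4
    have h5 := (gS_inj hF h4).2
    rw [add_zero, zero_add, map_mul, ← tits_compat hK j hj] at h5
    linear_combination h5
  have he0 : e 0 = 0 := by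
    have := hadd 0 0
    rw [add_zero] at this
    linear_combination -this
  have hequiv : ∀ (t : Kˣ) (a : K), e (th k (t : K) * a) =
      th m (φ (t : K)) * (φ (t : K)) ^ 2 * e a := by
    intro t a
    have h4 : ι (gT hK t * gS hK a 0 * (gT hK t)⁻¹) =
        gT hF (Units.map (φ : K →* F) t) * gS hF (φ a) (e a) *
          (gT hF (Units.map (φ : K →* F) t))⁻¹ := by
      rw [map_mul, map_mul, map_inv, hT, he]
    rw [gT_gS_conj, gT_gS_conj, h3] at h4
    have h5 := (gS_inj hF h4).2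
    rw [mul_zero, map_zero, add_zero] at h5
    exact h5
  have hform : ∀ s : K, e s = φ s * φ (th k s) * e 1 := by
    intro s
    by_cases hs : s = 0
    · rw [hs, he0, map_zero, zero_mul, zero_mul]
    · obtain ⟨k₀, hk₀⟩ := th_surj (m := k) hK s
      have hk0 : k₀ ≠ 0 := by
        rintro rfl
        rw [th_zero] at hk₀
        exact hs hk₀.symm
      have := hequiv (Units.mk0 k₀ hk0) 1
      rw [Units.val_mk0, mul_one, hk₀] at this
      rw [this, ← hk₀, th_th hK, tits_compat hK j hj, map_pow]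
  obtain ⟨u, hu⟩ := th_ne_self (m := k) hk hK
  have h1 := hadd u 1
  rw [hform (u + 1), hform u, hform 1, th_add hK, th_one] at h1
  simp only [map_add, map_one] at h1
  have h6 : φ (u + th k u) * e 1 = 0 := by
    rw [map_add]
    linear_combination h1
  have he1 : e 1 = 0 := by
    rcases mul_eq_zero.mp h6 with h | h
    · exact absurd ((map_eq_zero φ).mp h) hu
    · exact h
  rw [h3, hform a, he1, mul_zero, zero_add]

theorem hsmul_inf_of (hk : 1 ≤ k) (hK : Fintype.card K = 2 ^ (2 * k + 1))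
    (hF : Fintype.card F = 2 ^ (2 * m + 1)) (j : ℕ) (hj : m + 1 = (2 * k + 1) * j + (k + 1))
    (ι : Cfsg.Sz K k →* Cfsg.Sz F m) (φ : K →+* F)
    (hS : ∀ a b : K, ι (gS hK a b) = gS hF (φ a) (φ b))
    (hT : ∀ t : Kˣ, ι (gT hK t) = gT hF (Units.map (φ : K →* F) t))
    (t₁ : Fˣ) (hW : ι (gW hK) = gW hF * gT hF t₁) (g : Cfsg.Sz K k) :
    ((ι g : Cfsg.Sz F m) : SpecialLinearGroup (Fin 4) F) • pInf F =
      ((szMap hk hK hF j hj φ g : Cfsg.Sz F m) : SpecialLinearGroup (Fin 4) F) • pInf F := by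
  rcases decompG hk hK g with ⟨a, b, t, rfl⟩ | ⟨a, b, a', b', t, rfl⟩
  · rw [map_mul, map_mul, hS, hT, szMap_gS, szMap_gT]
  · rw [map_mul, map_mul, map_mul, map_mul, map_mul, map_mul, hS, hS, hT, hW, szMap_gS, szMap_gS,
      szMap_gT, szMap_gW]
    simp only [Subgroup.coe_mul, gS_coe, gT_coe, gW_coe, mul_smul, sT_smul_inf, sS_smul_inf]

theorem hrigid_W (hk : 1 ≤ k) (hK : Fintype.card K = 2 ^ (2 * k + 1)) (hm : 1 ≤ m)
    (hF : Fintype.card F = 2 ^ (2 * m + 1)) (j : ℕ) (hj : m + 1 = (2 * k + 1) * j + (k + 1))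
    (ι : Cfsg.Sz K k →* Cfsg.Sz F m) (φ : K →+* F)
    (hS : ∀ a b : K, ι (gS hK a b) = gS hF (φ a) (φ b))
    (hT : ∀ t : Kˣ, ι (gT hK t) = gT hF (Units.map (φ : K →* F) t)) :
    ι (gW hK) = gW hF := by
  have hw2 : ι (gW hK) * ι (gW hK) = 1 := by rw [← map_mul, gW_mul_gW, map_one]
  have hrel : ∀ t : Kˣ, ι (gW hK) * gT hF (Units.map (φ : K →* F) t) * ι (gW hK) =
      gT hF (Units.map (φ : K →* F) t)⁻¹ := by
    intro t
    rw [← map_inv, ← hT t⁻¹, ← gW_gT_gW hK t, map_mul, map_mul, hT]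
  obtain ⟨t₀, ht₀⟩ := exists_torus_ne_one (F := K) hk hK
  have hs₀ : Units.map (φ : K →* F) t₀ ≠ 1 := by
    intro h
    have h1 : φ (t₀ : K) = 1 := congrArg (fun u : Fˣ => (u : F)) h
    have h3 : (t₀ : K) = 1 := φ.injective (h1.trans (map_one φ).symm)
    exact ht₀ (Units.ext h3)
  have hcomm : (gW hF * ι (gW hK)) * gT hF (Units.map (φ : K →* F) t₀) =
      gT hF (Units.map (φ : K →* F) t₀) * (gW hF * ι (gW hK)) := by
    have e1 : ι (gW hK) * gT hF (Units.map (φ : K →* F) t₀) =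
        gT hF (Units.map (φ : K →* F) t₀)⁻¹ * ι (gW hK) := by
      rw [← hrel t₀, mul_assoc, mul_assoc, hw2, mul_one]
    rw [mul_assoc, e1, ← mul_assoc, ← mul_assoc, gT_gW hF (Units.map (φ : K →* F) t₀)]
  obtain ⟨t₁, ht₁⟩ := centralizer_sT hm hF hs₀ (gW hF * ι (gW hK)).1 (gW hF * ι (gW hK)).2
    (congrArg Subtype.val hcomm)
  have hc : gW hF * ι (gW hK) = gT hF t₁ := Subtype.ext ht₁
  have hW : ι (gW hK) = gW hF * gT hF t₁ := by
    rw [← hc, ← mul_assoc, gW_mul_gW, one_mul]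
  have key := hsmul_inf_of hk hK hF j hj ι φ hS hT t₁ hW (gW hK * gS hK 1 0 * gW hK)
  have e2 : gT hF t₁ * gW hF * gT hF t₁ = gW (m := m) hF := by
    rw [gT_gW, mul_assoc, ← gT_mul, inv_mul_cancel, gT_one, mul_one]
  have e3 : ι (gW hK * gS hK 1 0 * gW hK) =
      gW hF * gS hF (th m (t₁ : F) * φ 1) (th m (t₁ : F) * (t₁ : F) ^ 2 * φ 0) * gW hF := by
    rw [map_mul, map_mul, hS, hW, ← gT_gS_conj hF t₁ (φ 1) (φ 0)]
    have : gW hF * gT hF t₁ * gS hF (φ 1) (φ 0) * (gW hF * gT hF t₁) =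
        gW hF * (gT hF t₁ * gS hF (φ 1) (φ 0) * (gT hF t₁)⁻¹) *
          (gT hF t₁ * gW hF * gT hF t₁) := by
      group
    rw [this, e2]
  rw [e3, map_mul, map_mul, szMap_gS, szMap_gW] at key
  simp only [Subgroup.coe_mul, gS_coe, gW_coe, mul_smul, sW_smul_inf, sS_smul_zero hF] at key
  have h5 := smul_left_cancel _ key
  have h6 := (pt_inj h5).1
  rw [map_one, mul_one] at h6
  have h7 : (t₁ : F) = 1 := th_inj hF (by rw [h6, th_one])
  have h8 : t₁ = 1 := Units.ext h7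
  rw [hW, h8, gT_one, mul_one]

theorem hrigid (hk : 1 ≤ k) (hK : Fintype.card K = 2 ^ (2 * k + 1)) (hm : 1 ≤ m)
    (hF : Fintype.card F = 2 ^ (2 * m + 1)) (j : ℕ) (hj : m + 1 = (2 * k + 1) * j + (k + 1))
    (ι : Cfsg.Sz K k →* Cfsg.Sz F m) (φ : K →+* F)
    (hQ : ∀ a b : K, ∃ a' b' : F, ι (gS hK a b) = gS hF a' b')
    (hZ : ∀ b : K, ι (gS hK 0 b) = gS hF 0 (φ b))
    (hT : ∀ t : Kˣ, ι (gT hK t) = gT hF (Units.map (φ : K →* F) t)) :
    ι = szMap hk hK hF j hj φ := by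
  have hS := hrigid_Q hk hK hF j hj ι φ hQ hZ hT
  have hW := hrigid_W hk hK hm hF j hj ι φ hS hT
  apply MonoidHom.ext
  intro g
  rcases decompG hk hK g with ⟨a, b, t, rfl⟩ | ⟨a, b, a', b', t, rfl⟩
  · rw [map_mul, map_mul, hS, hT, szMap_gS, szMap_gT]
  · rw [map_mul, map_mul, map_mul, map_mul, map_mul, map_mul, hS, hS, hT, hW, szMap_gS, szMap_gS,
      szMap_gT, szMap_gW]

/-- every injective homomorphism between Suzuki groups is, up to conjugacy in the target,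
induced by a field embedding -/
theorem hom_decomp (hk : 1 ≤ k) (hK : Fintype.card K = 2 ^ (2 * k + 1)) (hm : 1 ≤ m)
    (hF : Fintype.card F = 2 ^ (2 * m + 1)) (j : ℕ) (hj : m + 1 = (2 * k + 1) * j + (k + 1))
    (ι : Cfsg.Sz K k →* Cfsg.Sz F m) (hinj : Function.Injective ι) :
    ∃ (g : Cfsg.Sz F m) (φ : K →+* F), ∀ x : Cfsg.Sz K k,
      ι x = g * szMap hk hK hF j hj φ x * g⁻¹ := by
  obtain ⟨g₁, hQ1⟩ := hnorm_Q hk hK hm hF ι
  have hinj1 := conjHom_injective g₁ ι hinj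
  obtain ⟨s, hQ2, hT2⟩ := hnorm_T hk hK hm hF (conjHom g₁ ι) hinj1 hQ1
  have hinj2 := conjHom_injective s _ hinj1
  obtain ⟨φ, c, hc, hZ, hT⟩ := hexists_sigma hK hF j hj (conjHom s (conjHom g₁ ι)) hinj2 hQ2 hT2
  obtain ⟨t₀, ht₀⟩ := lam_surj (m := m) hF (Units.mk0 c⁻¹ (inv_ne_zero hc))
  rw [Units.val_mk0] at ht₀
  have h4 : conjHom (gT hF t₀) (conjHom s (conjHom g₁ ι)) = szMap hk hK hF j hj φ := by
    apply hrigid hk hK hm hF j hj
    · intro a b
      obtain ⟨a', b', h⟩ := hQ2 a b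
      refine ⟨th m (t₀ : F) * a', th m (t₀ : F) * (t₀ : F) ^ 2 * b', ?_⟩
      rw [conjHom_apply, h, gT_gS_conj]
    · intro b
      rw [conjHom_apply, hZ, gT_gS_conj, mul_zero, ht₀, ← mul_assoc, inv_mul_cancel₀ hc, one_mul]
    · intro t
      rw [conjHom_apply, hT, ← gT_mul, mul_comm, gT_mul, mul_inv_cancel_right]
  refine ⟨g₁⁻¹ * s⁻¹ * (gT hF t₀)⁻¹, φ, ?_⟩
  intro x
  have h5 := DFunLike.congr_fun h4 x
  rw [conjHom_apply, conjHom_apply, conjHom_apply] at h5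
  rw [← h5]
  group

end HomRigid

end Cfsg.Agent.Lib.Helper2.SzL
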