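import Mathlib
import Cfsg.Prelude.Def_LieExceptional
import Cfsg.Agent.Lib.Helper2.SzSub3

set_option autoImplicit false

namespace Cfsg.Agent.Lib.Helper2.SzL

open Matrix Polynomial
open scoped LinearAlgebra.Projectivization Pointwise commutatorElement IsMulCommutative

section SubConj

variable {F : Type*} [Field F] [Fintype F] {m : ℕ} {K : Type*} [Field K] [Fintype K] {k : ℕ}

/-- any two field embeddings differ by an endomorphism of the source -/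
theorem exists_rho (hK : Fintype.card K = 2 ^ (2 * k + 1)) (φ₁ φ₂ : K →+* F) :
    ∃ ρ : K →+* K, ∀ y : K, φ₁ (ρ y) = φ₂ y := by
  classical
  have hs1 : 1 < 2 ^ (2 * k + 1) := Nat.one_lt_two_pow (by omega)
  set R : Set F := {y | y ^ (2 ^ (2 * k + 1)) = y} with hR
  have hsub : ∀ φ : K →+* F, Set.range φ ⊆ R := by
    rintro φ _ ⟨x, rfl⟩
    show φ x ^ (2 ^ (2 * k + 1)) = φ x
    rw [← map_pow, ← hK, FiniteField.pow_card]
  have hp0 : (X ^ (2 ^ (2 * k + 1)) - X : F[X]) ≠ 0 :=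
    FiniteField.X_pow_card_sub_X_ne_zero F hs1
  have hRsub : R ⊆ ((X ^ (2 ^ (2 * k + 1)) - X : F[X]).roots.toFinset : Set F) := by
    intro y hy
    rw [Finset.mem_coe, Multiset.mem_toFinset, Polynomial.mem_roots hp0]
    show Polynomial.eval y (X ^ (2 ^ (2 * k + 1)) - X) = 0
    simp only [Polynomial.eval_sub, Polynomial.eval_pow, Polynomial.eval_X]
    have : y ^ (2 ^ (2 * k + 1)) = y := hy
    rw [this, sub_self]
  have hRcard : R.ncard ≤ 2 ^ (2 * k + 1) := by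
    calc R.ncard ≤ ((X ^ (2 ^ (2 * k + 1)) - X : F[X]).roots.toFinset : Set F).ncard :=
          Set.ncard_le_ncard hRsub (Finset.finite_toSet _)
      _ = (X ^ (2 ^ (2 * k + 1)) - X : F[X]).roots.toFinset.card := Set.ncard_coe_finset _
      _ ≤ Multiset.card (X ^ (2 ^ (2 * k + 1)) - X : F[X]).roots := Multiset.toFinset_card_le _
      _ ≤ (X ^ (2 ^ (2 * k + 1)) - X : F[X]).natDegree := Polynomial.card_roots' _
      _ = 2 ^ (2 * k + 1) := FiniteField.X_pow_card_sub_X_natDegree_eq F hs1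
  have hrange : ∀ φ : K →+* F, Set.range φ = R := by
    intro φ
    apply Set.eq_of_subset_of_ncard_le (hsub φ) _ (Set.toFinite R)
    rw [Set.ncard_range_of_injective φ.injective, Nat.card_eq_fintype_card, hK]
    exact hRcard
  have hex : ∀ y : K, ∃ x : K, φ₁ x = φ₂ y := by
    intro y
    have : φ₂ y ∈ Set.range φ₁ := by rw [hrange φ₁, ← hrange φ₂]; exact ⟨y, rfl⟩
    exact this
  choose ρf hρf using hex
  refine ⟨{ toFun := ρf
            map_one' := φ₁.injective (by rw [hρf, map_one, map_one])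
            map_mul' := fun x y => φ₁.injective (by rw [hρf, map_mul, map_mul, hρf, hρf])
            map_zero' := φ₁.injective (by rw [hρf, map_zero, map_zero])
            map_add' := fun x y => φ₁.injective (by rw [hρf, map_add, map_add, hρf, hρf]) }, ?_⟩
  intro y
  exact hρf y

theorem range_szMap_le (hk : 1 ≤ k) (hK : Fintype.card K = 2 ^ (2 * k + 1))
    (hF : Fintype.card F = 2 ^ (2 * m + 1)) (j : ℕ) (hj : m + 1 = (2 * k + 1) * j + (k + 1))
    (φ₁ φ₂ : K →+* F) :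
    (szMap hk hK hF j hj φ₂).range ≤ (szMap hk hK hF j hj φ₁).range := by
  obtain ⟨ρ, hρ⟩ := exists_rho hK φ₁ φ₂
  rintro _ ⟨x, rfl⟩
  refine ⟨szMap hk hK hK 0 (by ring) ρ x, ?_⟩
  apply Subtype.ext
  apply Subtype.ext
  ext i j'
  show φ₁ (ρ (x.1.1 i j')) = φ₂ (x.1.1 i j')
  exact hρ _

theorem range_szMap_eq (hk : 1 ≤ k) (hK : Fintype.card K = 2 ^ (2 * k + 1))
    (hF : Fintype.card F = 2 ^ (2 * m + 1)) (j : ℕ) (hj : m + 1 = (2 * k + 1) * j + (k + 1))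
    (φ₁ φ₂ : K →+* F) :
    (szMap hk hK hF j hj φ₁).range = (szMap hk hK hF j hj φ₂).range :=
  le_antisymm (range_szMap_le hk hK hF j hj φ₂ φ₁) (range_szMap_le hk hK hF j hj φ₁ φ₂)

theorem mem_iff_of_decomp (hk : 1 ≤ k) (hK : Fintype.card K = 2 ^ (2 * k + 1))
    (hF : Fintype.card F = 2 ^ (2 * m + 1)) (j : ℕ) (hj : m + 1 = (2 * k + 1) * j + (k + 1))
    (S : Subgroup (Cfsg.Sz F m)) (e : ↥S ≃* Cfsg.Sz K k) (g : Cfsg.Sz F m) (φ : K →+* F)
    (h : ∀ x : Cfsg.Sz K k, (S.subtype.comp e.symm.toMonoidHom) x =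
      g * szMap hk hK hF j hj φ x * g⁻¹) (y : Cfsg.Sz F m) :
    y ∈ S ↔ g⁻¹ * y * g ∈ (szMap hk hK hF j hj φ).range := by
  constructor
  · intro hy
    refine ⟨e ⟨y, hy⟩, ?_⟩
    have h1 := h (e ⟨y, hy⟩)
    have h2 : (S.subtype.comp e.symm.toMonoidHom) (e ⟨y, hy⟩) = y := by
      show ((e.symm (e ⟨y, hy⟩) : ↥S) : Cfsg.Sz F m) = y
      rw [MulEquiv.symm_apply_apply]
    rw [h2] at h1
    have h3 : szMap hk hK hF j hj φ (e ⟨y, hy⟩) =
        g⁻¹ * (g * szMap hk hK hF j hj φ (e ⟨y, hy⟩) * g⁻¹) * g := by group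
    exact h3.trans (congrArg (fun z => g⁻¹ * z * g) h1.symm)
  · rintro ⟨x, hx⟩
    have h1 := h x
    rw [hx] at h1
    have h2 : y = (S.subtype.comp e.symm.toMonoidHom) x := by
      rw [h1]; group
    rw [h2]
    exact (e.symm x).2

theorem subfield_subgroups (hm : 1 ≤ m) (hF : Fintype.card F = 2 ^ (2 * m + 1))
    (hk : 1 ≤ k) (hK : Fintype.card K = 2 ^ (2 * k + 1)) (hdiv : 2 * k + 1 ∣ 2 * m + 1) :
    (∃ S : Subgroup ↥(Cfsg.Sz F m), Nonempty (↥S ≃* ↥(Cfsg.Sz K k))) ∧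
      ∀ S₁ S₂ : Subgroup ↥(Cfsg.Sz F m), Nonempty (↥S₁ ≃* ↥(Cfsg.Sz K k)) →
        Nonempty (↥S₂ ≃* ↥(Cfsg.Sz K k)) →
        ∃ g : ↥(Cfsg.Sz F m), S₂ = S₁.map (MulAut.conj g).toMonoidHom := by
  obtain ⟨j, hj⟩ := exists_j hdiv
  constructor
  · haveI : Fact (Nat.Prime 2) := ⟨Nat.prime_two⟩
    haveI : CharP F 2 := CharTwo.of_one_ne_zero_of_two_eq_zero one_ne_zero (two_eq_zero hF)
    haveI : CharP K 2 := CharTwo.of_one_ne_zero_of_two_eq_zero one_ne_zero (two_eq_zero hK)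
    letI : Algebra (ZMod 2) F := ZMod.algebra F 2
    letI : Algebra (ZMod 2) K := ZMod.algebra K 2
    have hfrF : Module.finrank (ZMod 2) F = 2 * m + 1 := by
      have := FiniteField.pow_finrank_eq_card 2 F
      rw [hF] at this
      exact Nat.pow_right_injective (le_refl 2) this
    have hfrK : Module.finrank (ZMod 2) K = 2 * k + 1 := by
      have := FiniteField.pow_finrank_eq_card 2 K
      rw [hK] at this
      exact Nat.pow_right_injective (le_refl 2) this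
    obtain ⟨f⟩ := FiniteField.nonempty_algHom_of_finrank_dvd (F := ZMod 2) (K := K) (L := F)
      (by rw [hfrF, hfrK]; exact hdiv)
    exact ⟨(szMap hk hK hF j hj f.toRingHom).range,
      ⟨(MonoidHom.ofInjective (szMap_injective hk hK hF j hj f.toRingHom)).symm⟩⟩
  · rintro S₁ S₂ ⟨e₁⟩ ⟨e₂⟩
    have hinj : ∀ (S : Subgroup (Cfsg.Sz F m)) (e : ↥S ≃* Cfsg.Sz K k),
        Function.Injective (S.subtype.comp e.symm.toMonoidHom) := by
      intro S e x y hxy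
      have h1 : e.symm x = e.symm y := Subtype.ext hxy
      exact e.symm.injective h1
    obtain ⟨g₁, φ₁, h₁⟩ := hom_decomp hk hK hm hF j hj _ (hinj S₁ e₁)
    obtain ⟨g₂, φ₂, h₂⟩ := hom_decomp hk hK hm hF j hj _ (hinj S₂ e₂)
    have m₁ := mem_iff_of_decomp hk hK hF j hj S₁ e₁ g₁ φ₁ h₁
    have m₂ := mem_iff_of_decomp hk hK hF j hj S₂ e₂ g₂ φ₂ h₂
    refine ⟨g₂ * g₁⁻¹, ?_⟩
    ext y
    rw [Subgroup.mem_map, m₂ y, range_szMap_eq hk hK hF j hj φ₂ φ₁]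
    constructor
    · intro hy
      refine ⟨g₁ * (g₂⁻¹ * y * g₂) * g₁⁻¹, ?_, ?_⟩
      · rw [m₁]
        have : g₁⁻¹ * (g₁ * (g₂⁻¹ * y * g₂) * g₁⁻¹) * g₁ = g₂⁻¹ * y * g₂ := by group
        rw [this]; exact hy
      · show g₂ * g₁⁻¹ * (g₁ * (g₂⁻¹ * y * g₂) * g₁⁻¹) * (g₂ * g₁⁻¹)⁻¹ = y
        group
    · rintro ⟨z, hz, rfl⟩
      have hz' := (m₁ z).mp hz
      have : g₂⁻¹ * ((MulAut.conj (g₂ * g₁⁻¹)).toMonoidHom z) * g₂ = g₁⁻¹ * z * g₁ := by
        show g₂⁻¹ * (g₂ * g₁⁻¹ * z * (g₂ * g₁⁻¹)⁻¹) * g₂ = g₁⁻¹ * z * g₁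
        group
      rw [this]; exact hz'

end SubConj

end Cfsg.Agent.Lib.Helper2.SzL
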